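import Mathlib
import Cfsg.Agent.H566.BNRich
import Cfsg.Agent.H485.Weyl

/-!
# Groups with coprime groups of automorphisms whose fixed points have abelian 2-subgroups (helper485)

* `Adm K` : there is a solvable group `A` of automorphisms of `K`, of order prime to the order of `K`, such that all
  2-subgroups of `C_K(A)` are abelian.
-/

set_option autoImplicit false
set_option linter.unusedSectionVars false

namespace Cfsg.Agent.H485.Adm

open Cfsg.Agent.H485.Weyl (AbTwo NonAb)
open Cfsg.Agent.H485.Frame (fx)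

/-- Some coprime solvable group of automorphisms has fixed points with abelian 2-subgroups. -/
def Adm (K : Type*) [Group K] : Prop :=
  ∃ A : Subgroup (MulAut K), (Nat.card A).Coprime (Nat.card K) ∧ Group.IsSolvable A ∧ AbTwo (fx A)

theorem AbTwo.map_equiv {K L : Type*} [Group K] [Group L] {C : Subgroup K} (hC : AbTwo C) (e : K ≃* L) :
    AbTwo (C.map e.toMonoidHom) := by
  intro Q hQ hp a ha b hb
  have h1 := hC (Q.map e.symm.toMonoidHom) (by
    rintro _ ⟨q, hq, rfl⟩
    obtain ⟨c, hc, hcq⟩ := hQ hq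
    have : e.symm q = c := by rw [← hcq]; exact e.symm_apply_apply c
    change e.symm q ∈ C
    rwa [this]) (hp.map _) (e.symm a) ⟨a, ha, rfl⟩ (e.symm b) ⟨b, hb, rfl⟩
  rw [← map_mul, ← map_mul] at h1
  exact e.symm.injective h1

theorem Adm.congr {K L : Type*} [Group K] [Group L] (e : K ≃* L) (h : Adm K) : Adm L := by
  obtain ⟨A, hcop, hs, hC⟩ := h
  refine ⟨A.map (MulAut.congr e).toMonoidHom, ?_, H566.solv_map_congr e hs, ?_⟩
  · rw [H566.card_map_congr, ← Nat.card_congr e.toEquiv]
    exact hcop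
  · have h1 : fx (A.map (MulAut.congr e).toMonoidHom) = (fx A).map e.toMonoidHom := H566.fx_map e A
    rw [h1]
    exact AbTwo.map_equiv hC e

theorem odd_of_coprime {n m : ℕ} (h : n.Coprime m) (h2 : 2 ∣ m) : Odd n := by
  rw [← Nat.not_even_iff_odd, even_iff_two_dvd]
  intro h3
  have := Nat.dvd_gcd h3 h2
  rw [h] at this
  omega

theorem coprime_six {n m : ℕ} (h : n.Coprime m) (h2 : 2 ∣ m) (h3 : 3 ∣ m) : n.Coprime 6 :=
  h.coprime_dvd_right ((Nat.Coprime.mul_dvd_of_dvd_of_dvd (by norm_num) h2 h3 : 2 * 3 ∣ m))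

end Cfsg.Agent.H485.Adm
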