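import Cfsg.Agent.H485.TypList
import Cfsg.Agent.H485.Two

/-!
# Simple groups with a root group datum: coprime groups of automorphisms with abelian 2-subgroups in the fixed points

* `SetUp` : a group of automorphisms fixing the frame and the nodes;
* `exists_setUp` : a solvable group of automorphisms of order prime to `6 |K|`, after conjugation;
* `false_of_badRGD` : the diagram is not bad;
* `false_of_two` : characteristic 2, the diagram has no edge.
-/

set_option autoImplicit false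
set_option linter.unusedSectionVars false

open scoped Pointwise

namespace Cfsg.Agent.H485.Rgd

open CoxeterSystem Cfsg.Agent.ChevalleyStructure.CoxeterGeom Cfsg.Agent.Tits.Roots Cfsg.Agent.Tits.Core
  Cfsg.Agent.Nodes.Reps Cfsg.Agent.Nodes.BNOf Cfsg.Agent.Nodes.Bruhat Cfsg.Agent.Nodes.OppDec
  Cfsg.Agent.KFacts.RgdAut Cfsg.Agent.KFacts.RgdDiag Cfsg.Agent.KFacts.RgdCharP Cfsg.Agent.H485.Frame
  Cfsg.Agent.H485.Weyl Cfsg.Agent.H485.Nodes Cfsg.Agent.H485.TypList Cfsg.Agent.Omega.ML.Ex.Typ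

theorem AbTwo.map {Y : Type*} [Group Y] {C : Subgroup Y} (hC : AbTwo C) (e : Y ≃* Y) :
    AbTwo (C.map e.toMonoidHom) := by
  intro Q hQ hp a ha b hb
  have h1 := hC (Q.map e.symm.toMonoidHom) (by
    rintro _ ⟨q, hq, rfl⟩
    obtain ⟨c, hc, hcq⟩ := hQ hq
    have : e.symm q = c := by rw [← hcq]; exact e.symm_apply_apply c
    change e.symm q ∈ C
    rwa [this]) (hp.map _) (e.symm a) ⟨a, ha, rfl⟩ (e.symm b) ⟨b, hb, rfl⟩
  rw [← map_mul, ← map_mul] at h1
  exact e.symm.injective h1

theorem center_eq_bot {K : Type*} [Group K] [IsSimpleGroup K] (hna : ¬ IsMulCommutative K) :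
    Subgroup.center K = ⊥ := by
  rcases IsSimpleGroup.eq_bot_or_eq_top_of_normal (Subgroup.center K) inferInstance with h | h
  · exact h
  · exact absurd (isMulCommutative_iff.2 fun a b => by
      have : b ∈ Subgroup.center K := by rw [h]; trivial
      exact Subgroup.mem_center_iff.1 this a) hna

section

variable {I W Y : Type*} [Fintype I] [DecidableEq I] [Group W] [Group Y] {M : CoxeterMatrix I}
  {cs : CoxeterSystem M W} {C : I → I → ℤ} {h : IsCartan M C} {p : ℕ} {T : Subgroup Y} {n : I → Y}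
  {X : (I → ℤ) → Subgroup Y}

/-- The group of automorphisms fixes the frame and the nodes, and the elements of the Weyl group have fixed
representatives. -/
structure SetUp [Finite W] (R : RGD cs h p T n X) (A : Subgroup (MulAut Y)) : Prop where
  cop : (Nat.card A).Coprime (Nat.card Y)
  solv : Group.IsSolvable A
  fixU : ∀ a ∈ A, Fix a (RGD.Sup X (RGD.Pos cs h))
  fixUN : ∀ a ∈ A, Fix a (UN cs h X)
  diag : ∀ a ∈ A, Diag T X a 1
  rp : ∀ w : W, ∃ g ∈ fx A, Rp cs R.nsys w g

theorem exists_setUp [Finite W] [Finite Y] [Fact p.Prime] [IsSimpleGroup Y] (hna : ¬ IsMulCommutative Y)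
    (R : RGD cs h p T n X) (hG1 : RGD.Sup X {x | IsRoot cs h x} = ⊤) (hM : Conn M → Rigid M)
    (A : Subgroup (MulAut Y)) (hcop : (Nat.card A).Coprime (Nat.card Y)) (hs : Group.IsSolvable A)
    (h6 : (Nat.card A).Coprime 6) :
    ∃ g : Y, SetUp R (MulAut.conj (MulAut.conj g : MulAut Y) • A : Subgroup (MulAut Y)) := by
  have hG : GG cs h T X = ⊤ := KFacts.RgdRigid.GG_eq_top hG1
  have hZ := center_eq_bot hna
  have hconn := KFacts.RgdLieCharP.conn_of_simple R hG1 hZ
  obtain ⟨g, hg⟩ := exists_frame_group R hG A hcop hs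
  have hcop' : (Nat.card (MulAut.conj (MulAut.conj g : MulAut Y) • A : Subgroup (MulAut Y))).Coprime (Nat.card Y) := by
    rwa [card_conj_smul]
  have hs' := solvable_conj_smul hs (MulAut.conj g : MulAut Y)
  have hD : ∀ a ∈ (MulAut.conj (MulAut.conj g : MulAut Y) • A : Subgroup (MulAut Y)), Diag T X a 1 := by
    intro a ha
    refine diag_one R hG (hg a ha).1 (hg a ha).2 (k := Nat.card A) h6 ?_ (hM hconn)
    rw [← card_conj_smul A (MulAut.conj g : MulAut Y)]
    exact congrArg Subtype.val (pow_card_eq_one' (x := (⟨a, ha⟩ : (MulAut.conj (MulAut.conj g : MulAut Y) • A :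
      Subgroup (MulAut Y)))))
  exact ⟨g, hcop', hs', fun a ha => (hg a ha).1, fun a ha => (hg a ha).2, hD,
    exists_fixed_rp R hG hZ _ hcop' hs' (fun a ha => (hg a ha).1) (fun a ha => (hg a ha).2) hD⟩

theorem abTwo_conj {A : Subgroup (MulAut Y)} (hC : AbTwo (fx A)) (g : Y) :
    AbTwo (fx (MulAut.conj (MulAut.conj g : MulAut Y) • A)) := by
  rw [fx_conj]
  exact AbTwo.map hC (MulAut.conj g)

end

theorem false_of_badRGD {p : ℕ} [Fact p.Prime] {K : Type*} [Group K] [Finite K] [IsSimpleGroup K]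
    (hna : ¬ IsMulCommutative K) (h : BadRGD p K) (A : Subgroup (MulAut K))
    (hcop : (Nat.card A).Coprime (Nat.card K)) (hs : Group.IsSolvable A) (h6 : (Nat.card A).Coprime 6)
    (hC : AbTwo (fx A)) : False := by
  obtain ⟨l, M, hM, hbad, A', hA', T, n, X, hW, R, hX⟩ := h
  obtain ⟨g, hg⟩ := exists_setUp hna R hX hM A hcop hs h6
  refine not_nonAb R (abTwo_conj hC g) hg.rp ?_
  rcases hbad with ⟨i, j, hij⟩ | ⟨i, j, k, hij, hjk, hik⟩
  · exact nonAb_of_pow M.toCoxeterSystem (k := 2) le_rfl (by norm_num) (by rw [hij]; norm_num)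
  · exact nonAb_of_path M.toCoxeterSystem hij hjk hik

theorem false_of_two {K : Type*} [Group K] [Finite K] [IsSimpleGroup K] (hna : ¬ IsMulCommutative K) {l : ℕ}
    {M : CoxeterMatrix (Fin l)} (h : HasRGDT 2 M K) (hM : Conn M → Rigid M) {i j : Fin l} (hij : i ≠ j)
    (hMij : M i j ≠ 2) (A : Subgroup (MulAut K))
    (hcop : (Nat.card A).Coprime (Nat.card K)) (hs : Group.IsSolvable A) (h6 : (Nat.card A).Coprime 6)
    (hC : AbTwo (fx A)) : False := by
  have : Fact (Nat.Prime 2) := ⟨Nat.prime_two⟩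
  obtain ⟨A', hA', T, n, X, hW, R, hX⟩ := h
  obtain ⟨g, hg⟩ := exists_setUp hna R hX hM A hcop hs h6
  exact Two.false_of_edge R hg.cop hg.solv hg.diag hg.rp (abTwo_conj hC g) hij hMij

end Cfsg.Agent.H485.Rgd
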