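import Mathlib
import Cfsg.Agent.FixBN.TwOfBN
import Cfsg.Agent.FixOdd.TwOf
import Cfsg.Agent.H566.BNPerm
import Cfsg.Agent.H485.Rgd
import Cfsg.Agent.S0320

/-!
# Coprime groups of automorphisms of a group with a split (B, N)-pair: the Weyl group (helper485)

* `exists_fixed_lift` : `A` a group of automorphisms of coprime order leaving `B` invariant and acting trivially on the
  Weyl group: some conjugate of `N` contains fixed points of `A` over every element of the Weyl group;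
* `trivial_of_card_le_two` : a group of odd order acts trivially on the Weyl group of a (B, N)-pair of rank at most two;
* `not_nonAb` : `AbTwo C_K(A)` implies that the Weyl group does not satisfy `NonAb`.
-/

set_option autoImplicit false
set_option linter.unusedSectionVars false

namespace Cfsg.Agent.H485.BNFix

open Cfsg Cfsg.Agent.LieExceptional.BNPairCore Cfsg.Agent.Tits.Core Cfsg.Agent.Tits.Core.Bldg Cfsg.Agent.Tits.OfBN
  Cfsg.Agent.Schreier.BNSch Cfsg.Agent.Tits.OppRes Cfsg.Agent.FixBN.OfBN Cfsg.Agent.FixBN.TwOfBN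
open Cfsg.Agent.H566 (Fx Stab glaub exists_fixed_coset rest coe_rest toPerm stab_iff)
open Cfsg.Agent.H485.Weyl (AbTwo NonAb not_nonAb_of_surj)
open Cfsg.Agent.H485.Frame (fx)
open scoped Pointwise

variable {K : Type*} [Group K] {P : Cfsg.BNPair K} {p : ℕ} {U : Subgroup K} (S : FixBN.Split P p U)

/-- **Fixed points over the Weyl group.** -/
theorem exists_fixed_lift [Finite K] [Fact p.Prime] [hN : ((P.B ⊓ P.N).subgroupOf P.N).Normal]
    {I : Type*} {M : CoxeterMatrix I} (e : I ≃ P.S) (cs : CoxeterSystem M (WP P))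
    (hcs : ∀ i, cs.simple i = QuotientGroup.mk (⟨(e i : K), P.subset (e i).2⟩ : P.N))
    (S : FixBN.Split P p U) {A : Subgroup (MulAut K)}
    (hcop : (Nat.card A).Coprime (Nat.card K)) (hsolv : Group.IsSolvable A) (hU : Stab A U)
    (hB : Stab A P.B) (hW : ∀ α ∈ A, ∀ g, wt P (α g) = wt P g) :
    ∃ u : K, ∀ w : WP P, ∃ n : P.N, QuotientGroup.mk n = w ∧ u * n * u⁻¹ ∈ Fx A := by
  classical
  have hI : Finite I := finite_I e
  have hCox : Cox cs := inferInstance
  have hcopH : ∀ H : Subgroup K, (Nat.card A).Coprime (Nat.card H) := fun H =>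
    hcop.coprime_dvd_right (Subgroup.card_subgroup_dvd_card H)
  obtain ⟨n0, hn0⟩ := QuotientGroup.mk_surjective (w0 cs)
  have hwt0 : wt P (n0 : K) = w0 cs := by rw [← hn0]; exact wt_of_mem P (self_mem_C _)
  -- a fixed element of the big cell
  obtain ⟨⟨y, hy, hyF⟩, -⟩ := glaub (A := ↥A) (H := ↥U × ↥P.B) (Y := K)
    (by
      rw [Nat.card_prod]
      exact Nat.Coprime.mul_right (hcopH _) (hcopH _)) (Or.inl hsolv)
    { toFun := fun a => MulEquiv.prodCongr (rest hU a) (rest hB a)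
      map_one' := by ext x <;> rfl
      map_mul' := fun a b => by ext x <;> rfl }
    ((toPerm K).comp A.subtype)
    { toFun := fun h => (Equiv.mulRight (h.2⁻¹ : ↥P.B).1).trans (Equiv.mulLeft h.1.1)
      map_one' := by ext x; simp
      map_mul' := fun a b => by ext x; simp [mul_assoc] }
    (fun a h y => by
      show a.1 (h.1.1 * (y * (h.2⁻¹ : ↥P.B).1)) = a.1 h.1.1 * (a.1 y * ((rest hB a h.2)⁻¹ : ↥P.B).1)
      rw [map_mul, map_mul, ← map_inv, coe_rest])
    {y | wt P y = w0 cs} ⟨n0, hwt0⟩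
    (fun a y hy => by
      show wt P (a.1 y) = w0 cs
      rw [hW a.1 a.2]
      exact hy)
    (fun h y hy => by
      show wt P (h.1.1 * (y * (h.2⁻¹ : ↥P.B).1)) = w0 cs
      rw [wt_mul_left P _ (S.le h.1.2), wt_mul_right P _ (h.2⁻¹).2]
      exact hy)
    (fun x hx y hy => by
      have h1 : wt P x = wt P (n0 : K) := hx.trans hwt0.symm
      have h2 : wt P y = wt P (n0 : K) := hy.trans hwt0.symm
      have key : ∀ z, wt P z = wt P (n0 : K) → ∃ u ∈ U, ∃ b ∈ P.B, z = u * n0 * b := by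
        intro z hz
        obtain ⟨b, hb, b', hb', rfl⟩ := wt_eq_wt_iff.1 hz.symm
        obtain ⟨u, hu, t, ht, rfl⟩ := S.cover' hb
        have h3 := P.conj_mem (n0 : K)⁻¹ (inv_mem n0.2) _ ht
        refine ⟨u, hu, (n0 : K)⁻¹ * t * (n0 : K)⁻¹⁻¹ * b', mul_mem h3 hb', ?_⟩
        group
      obtain ⟨u, hu, b, hb, rfl⟩ := key x h1
      obtain ⟨u', hu', b', hb', rfl⟩ := key y h2
      refine ⟨(⟨u' * u⁻¹, mul_mem hu' (inv_mem hu)⟩, ⟨b'⁻¹ * b, mul_mem (inv_mem hb') hb⟩), ?_⟩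
      show u' * u⁻¹ * (u * n0 * b * (b'⁻¹ * b)⁻¹) = u' * n0 * b'
      group)
  have hyw : wt P y = w0 cs := hy
  have hyF' : ∀ α ∈ A, α y = y := fun α hα => hyF ⟨α, hα⟩
  obtain ⟨b₀, hb₀, b, hb, hyb⟩ := wt_eq_wt_iff.1 (hwt0.trans hyw.symm)
  obtain ⟨u, hu, t, ht, rfl⟩ := S.cover' hb₀
  have hyb' : y = u * n0 * ((n0 : K)⁻¹ * t * (n0 : K)⁻¹⁻¹ * b) := by rw [hyb]; group
  have hb' : (n0 : K)⁻¹ * t * (n0 : K)⁻¹⁻¹ * b ∈ P.B := mul_mem (P.conj_mem (n0 : K)⁻¹ (inv_mem n0.2) _ ht) hb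
  generalize (n0 : K)⁻¹ * t * (n0 : K)⁻¹⁻¹ * b = c at hyb' hb'
  clear hyb hb
  -- the chamber `d = y B` opposite to the base chamber
  set Δ := bldg P e cs hcs with hΔ
  have hδ : ∀ g h : K, Δ.δ (QuotientGroup.mk g) (QuotientGroup.mk h) = wt P (g⁻¹ * h) := fun g h =>
    bldg_δ_mk P e cs hcs g h
  have hwtN : ∀ n : P.N, wt P (n : K) = QuotientGroup.mk n := fun n => wt_of_mem P (self_mem_C _)
  -- it is enough to lift the simple reflections
  suffices H : ∀ i, ∃ n : P.N, QuotientGroup.mk n = cs.simple i ∧ u * n * u⁻¹ ∈ Fx A by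
    refine ⟨u, fun w => ?_⟩
    obtain ⟨ω, rfl⟩ := cs.wordProd_surjective w
    induction ω with
    | nil =>
      refine ⟨1, ?_, ?_⟩
      · rw [cs.wordProd_nil]; rfl
      · rw [Subgroup.coe_one, mul_one, mul_inv_cancel]; exact one_mem _
    | cons i ω ih =>
      obtain ⟨n, hn, hnF⟩ := H i
      obtain ⟨n', hn', hnF'⟩ := ih
      refine ⟨n * n', ?_, ?_⟩
      · rw [cs.wordProd_cons, ← hn, ← hn']; rfl
      · have := mul_mem hnF hnF'
        have h1 : u * (n : K) * u⁻¹ * (u * n' * u⁻¹) = u * (n * n' : P.N) * u⁻¹ := by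
          rw [Subgroup.coe_mul]; group
        rwa [h1] at this
  intro i
  -- the reflection
  obtain ⟨n, hn⟩ : ∃ n : P.N, n = ⟨(e i : K), P.subset (e i).2⟩ := ⟨_, rfl⟩
  have hns : (QuotientGroup.mk n : WP P) = cs.simple i := by rw [hn, hcs]
  obtain ⟨x, hx⟩ : ∃ x : K, x = u * n * u⁻¹ := ⟨_, rfl⟩
  have hxw : wt P x = cs.simple i := by
    rw [hx, wt_mul_right P _ (inv_mem (S.le hu)), wt_mul_left P _ (S.le hu), hwtN, hns]
  have hyx : wt P (y⁻¹ * x) = w0 cs * cs.simple i := by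
    have h1 : y⁻¹ * x = c⁻¹ * (((n0⁻¹ * n : P.N) : K)) * u⁻¹ := by
      rw [hyb', hx, Subgroup.coe_mul, Subgroup.coe_inv]; group
    rw [h1, wt_mul_right P _ (inv_mem (S.le hu)), wt_mul_left P _ (inv_mem hb'), hwtN, QuotientGroup.mk_mul,
      QuotientGroup.mk_inv, hn0, hns, hCox.w0_inv]
  have hxy : wt P (x * y) = cs.simple i * w0 cs := by
    have h1 : x * y = u * (((n * n0 : P.N) : K)) * c := by
      rw [hyb', hx, Subgroup.coe_mul]; group
    rw [h1, wt_mul_right P _ hb', wt_mul_left P _ (S.le hu), hwtN, QuotientGroup.mk_mul, hn0, hns]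
  have hyxy : wt P (y⁻¹ * (x * y)) = cs.simple (Tits.Core.op cs i) := by
    have h1 : y⁻¹ * (x * y) = c⁻¹ * (((n0⁻¹ * n * n0 : P.N) : K)) * c := by
      rw [hyb', hx, Subgroup.coe_mul, Subgroup.coe_mul, Subgroup.coe_inv]; group
    rw [h1, wt_mul_right P _ hb', wt_mul_left P _ (inv_mem hb'), hwtN, QuotientGroup.mk_mul, QuotientGroup.mk_mul,
      QuotientGroup.mk_inv, hn0, hns, hCox.w0_inv, hCox.op]
  -- the chamber `x B`
  have key1 : ∀ α ∈ A, (QuotientGroup.mk x : K ⧸ P.B) = QuotientGroup.mk (α x) := by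
    intro α hα
    refine Tits.Rigid.eq_of_short (Δ := Δ) (x := QuotientGroup.mk y) (j := i) (w := w0 cs * cs.simple i) ?_ ?_ ?_ ?_
    · rw [hδ, hyx]
    · rw [hδ]
      have h1 : y⁻¹ * α x = α (y⁻¹ * x) := by rw [map_mul, map_inv, hyF' α hα]
      rw [h1, hW α hα, hyx]
    · rw [mul_assoc, cs.simple_mul_simple_self, mul_one]
      have h5 := hCox.len_w0_mul (cs.simple i)
      rw [cs.length_simple] at h5
      omega
    · have h6 : (QuotientGroup.mk x : K ⧸ P.B) ∈ Δ.Pan i (QuotientGroup.mk 1) := Or.inr (by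
        rw [hδ, inv_one, one_mul, hxw])
      have h7 : (QuotientGroup.mk (α x) : K ⧸ P.B) ∈ Δ.Pan i (QuotientGroup.mk 1) := Or.inr (by
        rw [hδ, inv_one, one_mul, hW α hα, hxw])
      exact Tits.Rigid.mem_Pan_Res (Δ.mem_Pan_trans (Δ.mem_Pan_symm h6) h7)
  -- the chamber `x y B`
  have key2 : ∀ α ∈ A, (QuotientGroup.mk (x * y) : K ⧸ P.B) = QuotientGroup.mk (α (x * y)) := by
    intro α hα
    refine Tits.Rigid.eq_of_short (Δ := Δ) (x := QuotientGroup.mk 1) (j := Tits.Core.op cs i) (w := cs.simple i * w0 cs)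
      ?_ ?_ ?_ ?_
    · rw [hδ, inv_one, one_mul, hxy]
    · rw [hδ, inv_one, one_mul, hW α hα, hxy]
    · have h4 : cs.simple i * w0 cs * cs.simple (Tits.Core.op cs i) = w0 cs := by
        rw [hCox.op]
        calc cs.simple i * w0 cs * (w0 cs * cs.simple i * w0 cs) =
            cs.simple i * (w0 cs * w0 cs) * cs.simple i * w0 cs := by group
          _ = w0 cs := by rw [hCox.w0_mul_self, mul_one, cs.simple_mul_simple_self, one_mul]
      rw [h4]
      have h5 := hCox.len_mul_w0 (cs.simple i)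
      rw [cs.length_simple] at h5
      omega
    · have h6 : (QuotientGroup.mk (x * y) : K ⧸ P.B) ∈ Δ.Pan (Tits.Core.op cs i) (QuotientGroup.mk y) := Or.inr (by
        rw [hδ, hyxy])
      have h7 : (QuotientGroup.mk (α (x * y)) : K ⧸ P.B) ∈ Δ.Pan (Tits.Core.op cs i) (QuotientGroup.mk y) := Or.inr (by
        rw [hδ]
        have h1 : y⁻¹ * α (x * y) = α (y⁻¹ * (x * y)) := by rw [map_mul α y⁻¹, map_inv, hyF' α hα]
        rw [h1, hW α hα, hyxy])
      exact Tits.Rigid.mem_Pan_Res (Δ.mem_Pan_trans (Δ.mem_Pan_symm h6) h7)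
  -- the stabilizer of the two chambers
  obtain ⟨T', hT'⟩ : ∃ T' : Subgroup K, ∀ t, t ∈ T' ↔ t ∈ P.B ∧ y⁻¹ * t * y ∈ P.B :=
    ⟨P.B ⊓ P.B.comap (MulAut.conj y⁻¹).toMonoidHom, fun t => by
      rw [Subgroup.mem_inf, Subgroup.mem_comap]
      simp⟩
  have hT'A : Stab A T' := by
    intro α hα t ht
    rw [hT'] at ht ⊢
    refine ⟨hB α hα _ ht.1, ?_⟩
    have h1 := hB α hα _ ht.2
    rwa [map_mul, map_mul, map_inv, hyF' α hα] at h1
  obtain ⟨t, ht, htF⟩ := exists_fixed_coset hT'A (hcopH _) (Or.inl hsolv) (g := x) (by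
    intro α hα
    rw [hT']
    refine ⟨mk_eq.1 (key1 α hα), ?_⟩
    have h1 := mk_eq.1 (key2 α hα)
    rw [map_mul, hyF' α hα] at h1
    have h2 : (x * y)⁻¹ * (α x * y) = y⁻¹ * (x⁻¹ * α x) * y := by group
    rwa [h2] at h1)
  rw [hT'] at ht
  -- `u⁻¹ t u` lies in the torus
  obtain ⟨u₁, hu₁, h, hh, huh⟩ := S.cover' (mul_mem (mul_mem (inv_mem (S.le hu)) ht.1) (S.le hu))
  have hfree : u₁ = 1 := by
    have hopp : Δ.Opp (QuotientGroup.mk 1) (QuotientGroup.mk (n0 : K)) := by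
      show Δ.δ _ _ = _
      rw [hδ, inv_one, one_mul, hwt0]
    apply free e cs hcs S hopp
    · rw [mem_UU S]
      simpa using hu₁
    · rw [smul_mk_eq]
      have h1 : y⁻¹ * t * y = c⁻¹ * ((n0 : K)⁻¹ * (u⁻¹ * t * u) * n0) * c := by rw [hyb']; group
      have h2 := ht.2
      rw [h1, Subgroup.mul_mem_cancel_right _ hb', Subgroup.mul_mem_cancel_left _ (inv_mem hb'), huh] at h2
      have h3 := P.conj_mem (n0 : K)⁻¹ (inv_mem n0.2) _ hh
      have h4 : (n0 : K)⁻¹ * (u₁ * h) * n0 = ((n0 : K)⁻¹ * u₁ * n0) * ((n0 : K)⁻¹ * h * (n0 : K)⁻¹⁻¹) := by group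
      rwa [h4, Subgroup.mul_mem_cancel_right _ h3] at h2
  rw [hfree, one_mul] at huh
  refine ⟨n * ⟨h, hh.2⟩, ?_, ?_⟩
  · rw [← hns, mk_eq_iff, Subgroup.coe_mul]
    have h1 : ((n : K) * h)⁻¹ * n = h⁻¹ := by group
    show ((n : K) * h)⁻¹ * n ∈ P.B
    rw [h1]
    exact inv_mem hh.1
  · have h1 : u * ((n * ⟨h, hh.2⟩ : P.N) : K) * u⁻¹ = x * t := by
      show u * ((n : K) * h) * u⁻¹ = x * t
      rw [← huh, hx]; group
    rw [h1]
    exact htF

/-- A group of odd order acts trivially on the Weyl group of a (B, N)-pair of rank at most two. -/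
theorem wt_of_card_le_two [Finite K] [hN : ((P.B ⊓ P.N).subgroupOf P.N).Normal] (h2 : Nat.card P.S ≤ 2)
    {I : Type*} {M : CoxeterMatrix I} (e : I ≃ P.S) (cs : CoxeterSystem M (WP P))
    (hcs : ∀ i, cs.simple i = QuotientGroup.mk (⟨(e i : K), P.subset (e i).2⟩ : P.N))
    {A : Subgroup (MulAut K)} (hodd : Odd (Nat.card A)) (hB : Stab A P.B) :
    ∀ α ∈ A, ∀ g, wt P (α g) = wt P g := by
  intro α hα g
  have hα' : ∀ b, (α : K ≃* K) b ∈ P.B ↔ b ∈ P.B := fun b => hB.mem_iff hα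
  have hsig : ∀ i, cs.simple (FixBN.TwOfBN.sigma α hα' e cs hcs i) = cs.simple i := by
    intro i
    have h1 : Stab A (P.parabolic {(e i : K)}) := H566.stab_of_card_le_two P h2 hodd hB (e i).2
    have h2 := h1 α hα _ (mem_parabolic_self P (e i : K))
    rw [← sigma_spec]
    rcases mem_parabolic_singleton P (e i).2 h2 with h | ⟨b, hb, b', hb', h⟩
    · exfalso
      exact not_mem_B P (e i).2 ((hα' _).1 h)
    · have h3 : (α : K ≃* K) (e i : K) = b * (e i : K) * b' := h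
      rw [h3, wt_mul_right P _ hb', wt_mul_left P _ hb]
      exact wt_e e cs hcs i
  have hid : ∀ w : WP P, fW P α w = w := by
    intro w
    obtain ⟨ω, rfl⟩ := cs.wordProd_surjective w
    induction ω with
    | nil => rw [cs.wordProd_nil, fW_one α hα']
    | cons i ω ih => rw [cs.wordProd_cons, fW_mul α hα' e cs hcs, ih, fW_simple α hα' e cs hcs, hsig]
  exact (fW_wt α hα' g).symm.trans (hid _)

/-- **The Weyl group of a split (B, N)-pair of rank at most two whose coprime fixed points have abelian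
2-subgroups.** -/
theorem not_nonAb [Finite K] [hp : Fact p.Prime] [hN : ((P.B ⊓ P.N).subgroupOf P.N).Normal] (S : FixBN.Split P p U)
    (h2 : Nat.card P.S ≤ 2) {A : Subgroup (MulAut K)} (hcop : (Nat.card A).Coprime (Nat.card K))
    (hsolv : Group.IsSolvable A) (hodd : Odd (Nat.card A)) (hC : AbTwo (fx A)) : ¬ NonAb (WP P) := by
  classical
  obtain ⟨M, cs, hcs⟩ := S0320.result P
  -- an invariant Sylow subgroup
  obtain ⟨Q, hQ⟩ := H566.exists_sylow_stab hcop hsolv p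
  obtain ⟨x, hx⟩ := FixBN.OfBN.exists_fix S (Q : Subgroup K) Q.2
  have hle := FixBN.OfBN.max S x (Q : Subgroup K) Q.2 hx
  have hQe : UU P U x = (Q : Subgroup K) := Q.3 (isP S x) hle
  obtain ⟨g, hg⟩ : ∃ g : K, g = x.out := ⟨_, rfl⟩
  have hQ' : ∀ y, y ∈ (Q : Subgroup K) ↔ g⁻¹ * y * g ∈ U := by
    intro y
    rw [← hQe, ← mem_UU S, hg]
    congr! 1
    exact congrArg _ (Quotient.out_eq' x).symm
  set A' : Subgroup (MulAut K) := (MulAut.conj (MulAut.conj g⁻¹ : MulAut K) • A : Subgroup (MulAut K)) with hA'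
  have hcop' : (Nat.card A').Coprime (Nat.card K) := by rw [hA', Frame.card_conj_smul]; exact hcop
  have hsolv' : Group.IsSolvable A' := Frame.solvable_conj_smul hsolv _
  have hodd' : Odd (Nat.card A') := by rw [hA', Frame.card_conj_smul]; exact hodd
  have hU : Stab A' U := by
    intro a ha u hu
    have h1 := Subgroup.mem_pointwise_smul_iff_inv_smul_mem.1 ha
    have h2 := hQ _ h1 (g * u * g⁻¹) ((hQ' _).2 (by
      have : g⁻¹ * (g * u * g⁻¹) * g = u := by group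
      rwa [this]))
    rw [hQ'] at h2
    have h3 : ((MulAut.conj (MulAut.conj g⁻¹ : MulAut K))⁻¹ • a : MulAut K) (g * u * g⁻¹) = g * a u * g⁻¹ := by
      show (MulAut.conj (MulAut.conj g⁻¹ : MulAut K))⁻¹ a (g * u * g⁻¹) = _
      rw [← map_inv, ← map_inv, inv_inv, MulAut.conj_apply, MulAut.mul_apply, MulAut.mul_apply, ← map_inv,
        MulAut.conj_apply, MulAut.conj_apply]
      congr 3
      group
    rw [h3] at h2
    have h4 : g⁻¹ * (g * a u * g⁻¹) * g = a u := by group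
    rwa [h4] at h2
  have hB : Stab A' P.B := by
    rw [stab_iff] at hU ⊢
    have := hU.normalizer
    rwa [S.normalizer_eq] at this
  obtain ⟨u, hu⟩ := exists_fixed_lift (Equiv.refl P.S) cs hcs S hcop' hsolv' hU hB
    (wt_of_card_le_two h2 (Equiv.refl P.S) cs hcs hodd' hB)
  have hC' : AbTwo ((fx A').map (MulAut.conj u⁻¹).toMonoidHom) := by
    apply Rgd.AbTwo.map
    rw [hA']
    exact Rgd.abTwo_conj hC g⁻¹
  refine not_nonAb_of_surj hC' (((fx A').map (MulAut.conj u⁻¹).toMonoidHom) ⊓ P.N) inf_le_left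
    ((QuotientGroup.mk' ((P.B ⊓ P.N).subgroupOf P.N)).comp (Subgroup.inclusion inf_le_right)) ?_
  intro w
  obtain ⟨n, hn, hnF⟩ := hu w
  refine ⟨⟨n, Subgroup.mem_inf.2 ⟨⟨_, hnF, ?_⟩, n.2⟩⟩, hn⟩
  show u⁻¹ * (u * n * u⁻¹) * u⁻¹⁻¹ = n
  group

end Cfsg.Agent.H485.BNFix
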