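import Cfsg.Agent.H485.Two
import Cfsg.Agent.H541.AutFrattini
import Cfsg.Agent.H388.TwoGen
import Cfsg.Agent.S0261
import Cfsg.Agent.GH.Cov.SylowThree
import Cfsg.Agent.Classification.QDW.AutSylow

/-!
# Coprime groups of automorphisms centralise 2-generated Sylow 2-subgroups

* `Triv6 Q` : the automorphisms of `Q` of order prime to `6` are trivial;
* `triv6_of_twoGen` : 2-generated 2-groups; `triv6_of_qdw` : semidihedral and wreathed groups;
* `exists_sylow_fix` : an invariant subgroup whose Sylow 2-subgroups are `Triv6` has a fixed Sylow 2-subgroup;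
* `false_of_sl2` : the fixed points of `A` have non-abelian 2-subgroups if `A` leaves invariant the image of a
  homomorphism of `SL₂(K)`, `K` of odd order, which is nontrivial at `-1`.
-/

set_option autoImplicit false
set_option linter.unusedSectionVars false

open scoped Pointwise

namespace Cfsg.Agent.H485.Gen

open Cfsg.Agent.H485.Frame Cfsg.Agent.H485.Weyl Cfsg.Agent.H485.Two Cfsg.Agent.H388.TwoGen

/-- The automorphisms of order prime to `6` are trivial. -/
def Triv6 (Q : Type*) [Group Q] : Prop := ∀ (a : MulAut Q) (k : ℕ), Nat.Coprime k 6 → a ^ k = 1 → a = 1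

theorem Triv6.congr {Q R : Type*} [Group Q] [Group R] (h : Triv6 Q) (e : Q ≃* R) : Triv6 R := by
  intro a k hk ha
  have h1 : MulAut.congr e.symm a = 1 := by
    refine h _ k hk ?_
    rw [← map_pow, ha, map_one]
  exact (MulAut.congr e.symm).injective (by rw [h1, map_one])

theorem triv6_of_twoGen {Q : Type*} [Group Q] [Finite Q] (hQ : IsPGroup 2 Q) (h : TwoGen Q) : Triv6 Q := by
  have : Fact (Nat.Prime 2) := ⟨Nat.prime_two⟩
  intro a k hk ha
  obtain ⟨n, hn⟩ := hQ.exists_card_eq
  obtain ⟨r, hr⟩ : ∃ r, (frattini Q).index = 2 ^ r := by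
    obtain ⟨r, hr⟩ := (hQ.to_quotient (frattini Q)).exists_card_eq
    exact ⟨r, by rw [← hr]; rfl⟩
  have h4 : (frattini Q).index ≤ 4 := by
    refine TwoGen.card_le (G := Q ⧸ frattini Q) (h.map (QuotientGroup.mk' _) (QuotientGroup.mk'_surjective _)) ?_
    intro g
    obtain ⟨x, rfl⟩ := QuotientGroup.mk_surjective g
    rw [← QuotientGroup.mk_mul, QuotientGroup.eq_one_iff, ← pow_two]
    exact Lib.FrattiniPGroup.pow_mem_frattini hQ x
  have hr2 : r ≤ 2 := by
    by_contra hcon
    have : 2 ^ 3 ≤ 2 ^ r := Nat.pow_le_pow_right (by norm_num) (by omega)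
    omega
  have h1 := H541.AutFrattini.card_aut_dvd hn hr
  have h2 : orderOf a ∣ 2 ^ (r * (n - r)) * 6 := by
    refine (orderOf_dvd_natCard a).trans (h1.trans (Nat.mul_dvd_mul_left _ ?_))
    interval_cases r <;> decide
  have h3 : orderOf a ∣ k := orderOf_dvd_of_pow_eq_one ha
  have h5 : Nat.Coprime k (2 ^ (r * (n - r)) * 6) := by
    refine Nat.Coprime.mul_right (Nat.Coprime.pow_right _ ?_) hk
    exact hk.coprime_dvd_right (by norm_num)
  have h6 : orderOf a = 1 := Nat.eq_one_of_dvd_coprimes h5 h3 h2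
  exact orderOf_eq_one_iff.1 h6

theorem triv6_of_qdw {Q : Type*} [Group Q] [Finite Q] (hQ : Cfsg.IsQuasiDihedral Q ∨ Cfsg.IsWreathed Q) : Triv6 Q := by
  intro a k hk ha
  obtain ⟨j, hj⟩ := Classification.QDW.AutSylow.isPGroup_mulAut hQ a
  have h1 : orderOf a ∣ 2 ^ j := orderOf_dvd_of_pow_eq_one hj
  have h2 : orderOf a ∣ k := orderOf_dvd_of_pow_eq_one ha
  have h3 : Nat.Coprime k (2 ^ j) := Nat.Coprime.pow_right _ (hk.coprime_dvd_right (by norm_num))
  exact orderOf_eq_one_iff.1 (Nat.eq_one_of_dvd_coprimes h3 h2 h1)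

/-- **An invariant subgroup whose Sylow 2-subgroups have no automorphisms of order prime to `6` has a fixed Sylow
2-subgroup.** -/
theorem exists_sylow_fix {Y : Type*} [Group Y] [Finite Y] {A : Subgroup (MulAut Y)}
    (hcop : (Nat.card A).Coprime (Nat.card Y)) (hs : Group.IsSolvable A) (h6 : (Nat.card A).Coprime 6)
    {L : Subgroup Y} (hL : ∀ a ∈ A, ∀ x ∈ L, a x ∈ L) (hT : ∀ Q : Sylow 2 L, Triv6 (Q : Subgroup L)) :
    ∃ Q : Sylow 2 L, (Q : Subgroup L).map L.subtype ≤ fx A := by
  classical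
  have : Fact (Nat.Prime 2) := ⟨Nat.prime_two⟩
  have : Finite (MulAut Y) := inferInstance
  let act : MulDistribMulAction ↥A ↥L := resAct A L hL
  have hcop' : (Nat.card A).Coprime (Nat.card L) := hcop.coprime_dvd_right (Subgroup.card_subgroup_dvd_card L)
  obtain ⟨Q, hQ⟩ := (H532.CopAct.inv_sylow (A := ↥A) (G := ↥L) hcop' (Or.inl hs) 2).1
  refine ⟨Q, ?_⟩
  rintro _ ⟨q, hq, rfl⟩ a ha
  -- the restriction of `a` to `Q`
  have hmem : ∀ (b : ↥A) (x : ↥L), x ∈ (Q : Subgroup ↥L) → b • x ∈ (Q : Subgroup ↥L) := fun b x hx =>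
    H532.CopAct.smul_mem_of_smul_eq Q hQ b hx
  let f : ↥A → MulAut ↥(Q : Subgroup ↥L) := fun b =>
    { toFun := fun x => ⟨b • (x : ↥L), hmem b x x.2⟩
      invFun := fun x => ⟨b⁻¹ • (x : ↥L), hmem b⁻¹ x x.2⟩
      left_inv := fun x => Subtype.ext (inv_smul_smul b (x : ↥L))
      right_inv := fun x => Subtype.ext (smul_inv_smul b (x : ↥L))
      map_mul' := fun x y => Subtype.ext (smul_mul' b (x : ↥L) (y : ↥L)) }
  have hf1 : f 1 = 1 := by
    ext x
    exact congrArg Subtype.val (one_smul ↥A (x : ↥L))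
  have hfmul : ∀ b c, f (b * c) = f b * f c := by
    intro b c
    ext x
    exact congrArg Subtype.val (mul_smul b c (x : ↥L))
  have hfpow : ∀ (b : ↥A) (k : ℕ), f (b ^ k) = f b ^ k := by
    intro b k
    induction k with
    | zero => rw [pow_zero, pow_zero, hf1]
    | succ k ih => rw [pow_succ, pow_succ, hfmul, ih]
  have h1 : f ⟨a, ha⟩ = 1 := by
    refine hT Q _ (Nat.card A) h6 ?_
    rw [← hfpow, pow_card_eq_one', hf1]
  have h2 := congrArg (fun g : MulAut ↥(Q : Subgroup ↥L) => ((g ⟨q, hq⟩ : ↥(Q : Subgroup ↥L)) : ↥L)) h1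
  exact congrArg Subtype.val (show (⟨a, ha⟩ : ↥A) • q = q from h2)

/-- Abelian 2-subgroups in the fixed points and `Triv6` Sylow 2-subgroups: abelian Sylow 2-subgroups. -/
theorem sylow_comm {Y : Type*} [Group Y] [Finite Y] {A : Subgroup (MulAut Y)}
    (hcop : (Nat.card A).Coprime (Nat.card Y)) (hs : Group.IsSolvable A) (h6 : (Nat.card A).Coprime 6)
    (hC : AbTwo (fx A)) {L : Subgroup Y} (hL : ∀ a ∈ A, ∀ x ∈ L, a x ∈ L)
    (hT : ∀ Q : Sylow 2 L, Triv6 (Q : Subgroup L)) (Q : Sylow 2 L) : IsMulCommutative (Q : Subgroup L) := by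
  have : Fact (Nat.Prime 2) := ⟨Nat.prime_two⟩
  obtain ⟨P, hP⟩ := exists_sylow_fix hcop hs h6 hL hT
  have h1 : IsMulCommutative (P : Subgroup L) := by
    refine isMulCommutative_iff.2 fun a b => ?_
    have h2 := hC ((P : Subgroup L).map L.subtype) hP (P.isPGroup'.map _) _ ⟨_, a.2, rfl⟩ _ ⟨_, b.2, rfl⟩
    exact Subtype.ext (Subtype.ext h2)
  have e := P.equiv Q
  refine isMulCommutative_iff.2 fun a b => ?_
  apply e.symm.injective
  rw [map_mul, map_mul]
  exact isMulCommutative_iff.1 h1 _ _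

/-- The whole group. -/
theorem sylow_comm_top {Y : Type*} [Group Y] [Finite Y] {A : Subgroup (MulAut Y)}
    (hcop : (Nat.card A).Coprime (Nat.card Y)) (hs : Group.IsSolvable A) (h6 : (Nat.card A).Coprime 6)
    (hC : AbTwo (fx A)) (hT : ∀ Q : Sylow 2 Y, Triv6 (Q : Subgroup Y)) (Q : Sylow 2 Y) :
    IsMulCommutative (Q : Subgroup Y) := by
  have : Fact (Nat.Prime 2) := ⟨Nat.prime_two⟩
  have key : ∀ P : Sylow 2 (⊤ : Subgroup Y), ∃ S : Sylow 2 Y,
      Nonempty (↥(P : Subgroup (⊤ : Subgroup Y)) ≃* ↥(S : Subgroup Y)) := by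
    intro P
    let S : Sylow 2 Y := P.mapSurjective (f := (Subgroup.topEquiv (G := Y)).toMonoidHom) Subgroup.topEquiv.surjective
    exact ⟨S, ⟨(P : Subgroup (⊤ : Subgroup Y)).equivMapOfInjective _ (Subgroup.topEquiv (G := Y)).injective⟩⟩
  obtain ⟨P⟩ : Nonempty (Sylow 2 (⊤ : Subgroup Y)) := inferInstance
  have h1 := sylow_comm hcop hs h6 hC (L := ⊤) (fun _ _ _ _ => Subgroup.mem_top _) (fun P => by
    obtain ⟨S, ⟨e⟩⟩ := key P
    exact (hT S).congr e.symm) P
  obtain ⟨S, ⟨e⟩⟩ := key P
  have e' := e.trans (S.equiv Q)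
  refine isMulCommutative_iff.2 fun a b => ?_
  apply e'.symm.injective
  rw [map_mul, map_mul]
  exact isMulCommutative_iff.1 h1 _ _

/-! ### `SL₂` -/

theorem twoGen_quaternion (n : ℕ) : TwoGen (QuaternionGroup n) := by
  refine ⟨QuaternionGroup.a 1, QuaternionGroup.xa 0, ?_⟩
  rw [eq_top_iff]
  have ha : ∀ i : ZMod (2 * n), QuaternionGroup.a i ∈
      Subgroup.closure ({QuaternionGroup.a 1, QuaternionGroup.xa 0} : Set (QuaternionGroup n)) := by
    intro i
    obtain ⟨z, rfl⟩ := ZMod.intCast_surjective i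
    have h1 : QuaternionGroup.a (z : ZMod (2 * n)) = (QuaternionGroup.a 1 : QuaternionGroup n) ^ z := by
      induction z using Int.induction_on with
      | zero => rw [Int.cast_zero, zpow_zero]; rfl
      | succ k ih =>
        rw [zpow_add_one, ← ih, QuaternionGroup.a_mul_a]
        push_cast; rfl
      | pred k ih =>
        rw [zpow_sub_one, ← ih]
        have h2 : (QuaternionGroup.a 1 : QuaternionGroup n)⁻¹ = QuaternionGroup.a (-1) := by
          apply inv_eq_of_mul_eq_one_left
          rw [QuaternionGroup.a_mul_a, neg_add_cancel]; rfl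
        rw [h2, QuaternionGroup.a_mul_a]
        push_cast
        congr 1
        ring
    rw [h1]
    exact Subgroup.zpow_mem _ (Subgroup.subset_closure (by simp)) z
  rintro (i | i) -
  · exact ha i
  · have h1 : (QuaternionGroup.xa i : QuaternionGroup n) = QuaternionGroup.xa 0 * QuaternionGroup.a i := by
      rw [QuaternionGroup.xa_mul_a, zero_add]
    rw [h1]
    exact mul_mem (Subgroup.subset_closure (by simp)) (ha i)

theorem not_comm_quaternion {k : ℕ} (hk : 1 ≤ k) : ¬ IsMulCommutative (QuaternionGroup (2 ^ k)) := by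
  intro h
  have h1 := isMulCommutative_iff.1 h (QuaternionGroup.a 1) (QuaternionGroup.xa 0)
  rw [QuaternionGroup.a_mul_xa, QuaternionGroup.xa_mul_a] at h1
  injection h1 with h2
  have h3 : ((2 : ℕ) : ZMod (2 * 2 ^ k)) = 0 := by
    push_cast
    linear_combination -h2
  rw [ZMod.natCast_eq_zero_iff] at h3
  have h4 := Nat.le_of_dvd (by norm_num) h3
  have h5 : 2 ^ 1 ≤ 2 ^ k := Nat.pow_le_pow_right (by norm_num) hk
  omega

/-- A Sylow 2-subgroup of the image of `SL₂(K)` when `-1` is not in the kernel. -/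
theorem exists_quaternion {K : Type*} [Field K] [Fintype K] (hK : Odd (Fintype.card K)) {L : Type*} [Group L] [Finite L]
    (f : Matrix.SpecialLinearGroup (Fin 2) K →* L) (hf : Function.Surjective f) (h1 : f (-1) ≠ 1) (Q : Sylow 2 L) :
    ∃ k, 1 ≤ k ∧ Nonempty (↥(Q : Subgroup L) ≃* QuaternionGroup (2 ^ k)) := by
  have : Fact (Nat.Prime 2) := ⟨Nat.prime_two⟩
  obtain ⟨P⟩ : Nonempty (Sylow 2 (Matrix.SpecialLinearGroup (Fin 2) K)) := inferInstance
  obtain ⟨k, hk, ⟨e⟩⟩ := S0261.result hK P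
  refine ⟨k, hk, ?_⟩
  have h2K : (2 : K) ≠ 0 := by
    intro h0
    have h3 : CharP K 2 := CharTwo.of_one_ne_zero_of_two_eq_zero one_ne_zero h0
    obtain ⟨k, -, hk⟩ := FiniteField.card K 2
    rw [hk] at hK
    exact absurd hK (by
      rw [Nat.not_odd_iff_even]
      exact (even_two).pow_of_ne_zero k.ne_zero)
  have hker : Odd (Nat.card f.ker) := by
    by_contra hodd
    rw [Nat.not_odd_iff_even, even_iff_two_dvd] at hodd
    obtain ⟨g, hg⟩ := exists_prime_orderOf_dvd_card' 2 hodd
    have hg2 : (g : Matrix.SpecialLinearGroup (Fin 2) K) * g = 1 := by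
      have h4 := pow_orderOf_eq_one g
      rw [hg, pow_two] at h4
      exact congrArg Subtype.val h4
    have hg1 : (g : Matrix.SpecialLinearGroup (Fin 2) K) ≠ 1 := by
      intro h4
      have h5 : g = 1 := Subtype.ext h4
      rw [h5, orderOf_one] at hg
      norm_num at hg
    have h5 : (g : Matrix.SpecialLinearGroup (Fin 2) K) = -1 := by
      obtain ⟨x, hx⟩ : ∃ x, x = (g : Matrix.SpecialLinearGroup (Fin 2) K) := ⟨_, rfl⟩
      rw [← hx] at hg2 hg1 ⊢
      have hinv : x⁻¹ = x := inv_eq_of_mul_eq_one_left hg2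
      have h00 := congrFun (congrFun (congrArg Subtype.val hinv) 0) 0
      have h01 := congrFun (congrFun (congrArg Subtype.val hinv) 0) 1
      have h10 := congrFun (congrFun (congrArg Subtype.val hinv) 1) 0
      rw [Matrix.SpecialLinearGroup.coe_inv, Matrix.adjugate_fin_two] at h00 h01 h10
      simp only [Matrix.of_apply, Matrix.cons_val', Matrix.cons_val_zero, Matrix.cons_val_one,
        Matrix.empty_val', Matrix.cons_val_fin_one] at h00 h01 h10
      have e01 : x.1 0 1 = 0 := by
        have : (2 : K) * x.1 0 1 = 0 := by linear_combination -h01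
        exact (mul_eq_zero.1 this).resolve_left h2K
      have e10 : x.1 1 0 = 0 := by
        have : (2 : K) * x.1 1 0 = 0 := by linear_combination -h10
        exact (mul_eq_zero.1 this).resolve_left h2K
      have hdet := x.2
      rw [Matrix.det_fin_two, e01, e10, mul_zero, sub_zero, h00] at hdet
      have h6 : (x.1 0 0 - 1) * (x.1 0 0 + 1) = 0 := by linear_combination hdet
      rcases mul_eq_zero.1 h6 with h7 | h7
      · exfalso
        apply hg1
        have h8 : x.1 0 0 = 1 := by linear_combination h7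
        apply Subtype.ext
        ext i j
        fin_cases i <;> fin_cases j
        · simpa using h8
        · simpa using e01
        · simpa using e10
        · simpa [h00] using h8
      · have h8 : x.1 0 0 = -1 := by linear_combination h7
        apply Subtype.ext
        ext i j
        fin_cases i <;> fin_cases j
        · simpa using h8
        · simpa using e01
        · simpa using e10
        · simpa [h00] using h8
    exact h1 (by rw [← h5]; exact MonoidHom.mem_ker.1 g.2)
  have hrange : Odd f.range.index := by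
    rw [MonoidHom.range_eq_top.2 hf, Subgroup.index_top]
    exact odd_one
  obtain ⟨e2⟩ := GH.Cov.SylowThree.sylow_iso f hker hrange P Q
  exact ⟨e2.symm.trans e⟩

/-- **`SL₂(K)`, `K` of odd order, has fixed non-abelian 2-subgroups.** -/
theorem false_of_sl2 {Y : Type*} [Group Y] [Finite Y] {A : Subgroup (MulAut Y)}
    (hcop : (Nat.card A).Coprime (Nat.card Y)) (hs : Group.IsSolvable A) (h6 : (Nat.card A).Coprime 6)
    (hC : AbTwo (fx A)) {K : Type*} [Field K] [Fintype K] (hK : Odd (Fintype.card K))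
    (f : Matrix.SpecialLinearGroup (Fin 2) K →* Y) (h1 : f (-1) ≠ 1) (hL : ∀ a ∈ A, ∀ x ∈ f.range, a x ∈ f.range) :
    False := by
  have : Fact (Nat.Prime 2) := ⟨Nat.prime_two⟩
  have hq := exists_quaternion hK f.rangeRestrict f.rangeRestrict_surjective (fun h => h1 (congrArg Subtype.val h))
  obtain ⟨Q⟩ : Nonempty (Sylow 2 f.range) := inferInstance
  have h2 := sylow_comm hcop hs h6 hC hL (fun Q => by
    obtain ⟨k, -, ⟨e⟩⟩ := hq Q
    exact triv6_of_twoGen Q.isPGroup' ((twoGen_quaternion _).map e.symm.toMonoidHom e.symm.surjective)) Q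
  obtain ⟨k, hk, ⟨e⟩⟩ := hq Q
  apply not_comm_quaternion hk
  refine isMulCommutative_iff.2 fun a b => ?_
  apply e.symm.injective
  rw [map_mul, map_mul]
  exact isMulCommutative_iff.1 h2 _ _

/-- The Sylow 2-subgroups of `PSL₂(F)`, `F` of odd order. -/
theorem triv6_psl2 {F : Type*} [Field F] [Fintype F] (hF : Odd (Fintype.card F)) {Y : Type*} [Group Y] [Finite Y]
    (e : Y ≃* Matrix.ProjectiveSpecialLinearGroup (Fin 2) F) (Q : Sylow 2 Y) : Triv6 (Q : Subgroup Y) := by
  have : Fact (Nat.Prime 2) := ⟨Nat.prime_two⟩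
  obtain ⟨P⟩ : Nonempty (Sylow 2 (Matrix.SpecialLinearGroup (Fin 2) F)) := inferInstance
  obtain ⟨k, hk, ⟨e1⟩⟩ := S0261.result hF P
  let f : Matrix.SpecialLinearGroup (Fin 2) F →* Y :=
    e.symm.toMonoidHom.comp (QuotientGroup.mk' (Subgroup.center (Matrix.SpecialLinearGroup (Fin 2) F)))
  have hf : Function.Surjective f := e.symm.surjective.comp (QuotientGroup.mk'_surjective _)
  have h1 : TwoGen ↥(P : Subgroup (Matrix.SpecialLinearGroup (Fin 2) F)) :=
    (twoGen_quaternion _).map e1.symm.toMonoidHom e1.symm.surjective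
  have h2 : TwoGen ↥((P.mapSurjective hf : Sylow 2 Y) : Subgroup Y) :=
    h1.map (f.subgroupMap (P : Subgroup (Matrix.SpecialLinearGroup (Fin 2) F))) (f.subgroupMap_surjective _)
  have h3 := h2.map ((P.mapSurjective hf).equiv Q).toMonoidHom ((P.mapSurjective hf).equiv Q).surjective
  exact triv6_of_twoGen Q.isPGroup' h3

end Cfsg.Agent.H485.Gen
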