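import Mathlib
import Cfsg.Agent.Schreier.PSU
import Cfsg.Agent.CpAutU.Fixed
import Cfsg.Agent.ClassicalGeometry.GUBasic
import Cfsg.Agent.H485.Weyl

/-!
# Coprime groups of automorphisms of `PSU₃(2ⁿ)` (helper485)

* `exists_conj` : an automorphism `toAut A ρ` with `toAut A ρ ^ orderOf ρ = 1`, `orderOf ρ` odd, is conjugate to the
  field automorphism `toAut 1 ρ`;
* `exists_field` : a group of automorphisms of `PSU₃(q)` of order prime to the order of `PSU₃(q)` and to 6 is conjugate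
  into the group of field automorphisms `toAut 1 ρ` with `ρ` of odd order, and is cyclic;
* `false_psu3` : for `q` even it fixes two non-commuting elements of a 2-subgroup.
-/

set_option autoImplicit false
set_option linter.unusedSectionVars false

namespace Cfsg.Agent.H485.Psu2

open Matrix Cfsg Cfsg.Agent.CpAut.Psl Cfsg.Agent.CpAut.Descent Cfsg.Agent.CpAutU.Fld Cfsg.Agent.CpAutU.Desc
open Cfsg.Agent.LieClassical.HermBasic Cfsg.Agent.LieClassical.HermSiegel
open Cfsg.Agent.ClassicalGeometry.PSUAutCount (gm semiConj toAut gm_mul gm_one gm_mul_inv gm_inv_mul eq_of_toAut_eq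
  sc gm_sc_mul toAut_sc_mul herm_gm act_semiConj herm_semi gm_mulVec_inv gm_inv_mulVec gm_inj)
open Cfsg.Agent.ClassicalGeometry.UnitAutBasic (pr pr_surjective exists_scalar_of_mem_center)
open Cfsg.Agent.Schreier.PSU (f₁ f₂ toAut_eq mapGU conj_field toAut_pr' gm_mapGU f₁_eq_conj)
open Cfsg.Agent.H485.Weyl (AbTwo) 
open Cfsg.Agent.H485.Frame (fx)
open Cfsg.Agent.CpAutU.Fixed (mat_semiConj)
open Cfsg.Agent.ClassicalGeometry.PSUAutBasic (siegG isPGroup_siegG eq_of_pr_eq)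

variable {F : Type*} [Field F] [Fintype F] {q n : ℕ} {ρ : F ≃+* F}

/-- **Automorphisms of the same odd order as their field part are conjugate to field automorphisms.** -/
theorem exists_conj (hF : Fintype.card F = q ^ 2) (hn : 3 ≤ n) {ℓ : ℕ} (hodd : Odd ℓ) {A : GU n F q}
    (h : toAut A ρ ^ ℓ = 1) (hord : orderOf ρ = ℓ) :
      ∃ M : GU n F q, toAut A ρ = toAut M 1 * toAut 1 ρ * (toAut M 1)⁻¹ := by
  obtain ⟨h2, c, hc1, hc⟩ := exists_scalar hF hn h
  have hsemi := semi_perm (A : GL (Fin n) F) ρ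
  have hc0 : c ≠ 0 := by
    rintro rfl
    rw [zero_mul] at hc1
    exact zero_ne_one hc1
  have hcρ : ρ c = c := by
    have h3 : ∀ v, (perm (A : GL (Fin n) F) ρ ^ ℓ) (perm (A : GL (Fin n) F) ρ v) =
        perm (A : GL (Fin n) F) ρ ((perm (A : GL (Fin n) F) ρ ^ ℓ) v) := by
      intro v
      rw [← Equiv.Perm.mul_apply, ← Equiv.Perm.mul_apply, ← pow_succ, ← pow_succ']
    have h4 := h3 (fun _ => 1)
    rw [hc, hc, hsemi.smul] at h4
    have h5 : perm (A : GL (Fin n) F) ρ (fun _ => 1) ≠ 0 := fun h6 => by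
      have h7 := (perm (A : GL (Fin n) F) ρ).injective (h6.trans hsemi.map_zero.symm)
      exact one_ne_zero (congrFun h7 ⟨0, by omega⟩)
    have h6 : (c - ρ c) • perm (A : GL (Fin n) F) ρ (fun _ => 1) = 0 := by rw [sub_smul, h4, sub_self]
    rcases smul_eq_zero.1 h6 with h7 | h7
    · exact (sub_eq_zero.1 h7).symm
    · exact absurd h7 h5
  have hci : c⁻¹ * (c⁻¹) ^ q = 1 := by rw [inv_pow, ← mul_inv, hc1, inv_one]
  obtain ⟨t, ht1, ht⟩ := exists_norm_one hF hord hodd (c := c⁻¹) (by rw [map_inv₀, hcρ]) hci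
  obtain ⟨A', hA'⟩ : ∃ A' : GU n F q, A' = sc n ⟨t, ht1⟩ * A := ⟨_, rfl⟩
  have hS' : ∀ v, perm (A' : GL (Fin n) F) ρ v = t • perm (A : GL (Fin n) F) ρ v := by
    intro v
    show gm A' *ᵥ _ = t • (gm A *ᵥ _)
    rw [hA', gm_sc_mul, Matrix.smul_mulVec]
  have hT : perm (A' : GL (Fin n) F) ρ ^ ℓ = 1 := by
    ext1 v
    rw [pow_mul_apply hsemi hS', ht, hc, smul_smul, inv_mul_cancel₀ hc0, one_smul]
    rfl
  obtain ⟨M, hM⟩ := exists_descent hF hord hodd hT
  refine ⟨M, ?_⟩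
  rw [eq_mul_inv_iff_mul_eq, ← toAut_sc_mul ⟨t, ht1⟩ A ρ, ← hA', toAut_mul, toAut_mul, hM, mul_one, one_mul,
    mapGU_one, mul_one]

/-- The `n`-th power of a linear automorphism is inner. -/
theorem f₁_pow_mem (hF : Fintype.card F = q ^ 2) (A : GU n F q) :
    (f₁ A) ^ n ∈ (MulAut.conj : PSU n F q →* MulAut (PSU n F q)).range := by
  have hd := ClassicalGeometry.GUBasic.det_pow hF (herm_gm A)
  have hd0 : (gm A).det ≠ 0 := by
    intro h
    rw [h, zero_pow (Nat.succ_ne_zero q)] at hd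
    exact zero_ne_one hd
  have hc : ((gm A).det)⁻¹ * ((gm A).det)⁻¹ ^ q = 1 := by
    rw [← pow_succ', inv_pow, hd, inv_one]
  have hgp : ∀ k : ℕ, gm (A ^ k) = gm A ^ k := by
    intro k
    induction k with
    | zero => rw [pow_zero, pow_zero, gm_one]
    | succ k ih => rw [pow_succ, gm_mul, ih, pow_succ]
  have hdet : (gm (sc n ⟨((gm A).det)⁻¹, hc⟩ * A ^ n)).det = 1 := by
    rw [gm_sc_mul, Matrix.det_smul, hgp, det_pow, Fintype.card_fin, ← mul_pow, inv_mul_cancel₀ hd0, one_pow]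
  let g : SU n F q := mkSU (gm (sc n ⟨((gm A).det)⁻¹, hc⟩ * A ^ n)) hdet (fun u v => herm_gm _ u v)
  have h1 : f₁ (sc n ⟨((gm A).det)⁻¹, hc⟩ * A ^ n) = MulAut.conj (pr n F q g) := f₁_eq_conj _ g rfl
  have h2 : f₁ (sc n ⟨((gm A).det)⁻¹, hc⟩ * A ^ n) = f₁ (A ^ n) := toAut_sc_mul _ _ _
  exact ⟨pr n F q g, by rw [← h1, h2, map_pow]⟩

/-- A group of automorphisms of order prime to `n` and the order of `PSU` has no linear automorphism. -/
theorem eq_one_of_lin (hF : Fintype.card F = q ^ 2) {B : Subgroup (MulAut (PSU n F q))}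
    (hcop : (Nat.card B).Coprime (Nat.card (PSU n F q))) (hcopn : (Nat.card B).Coprime n)
    [Finite (MulAut (PSU n F q))] {A : GU n F q} (hA : f₁ A ∈ B) : f₁ A = (1 : MulAut (PSU n F q)) := by
  obtain ⟨g, hg⟩ := f₁_pow_mem hF A
  have h1 : orderOf (f₁ A : MulAut (PSU n F q)) ∣ Nat.card B := by
    have := orderOf_dvd_natCard (⟨f₁ A, hA⟩ : B)
    rwa [Subgroup.orderOf_mk] at this
  have h2 : orderOf ((f₁ A : MulAut (PSU n F q)) ^ n) = 1 := by
    have h3 : orderOf ((f₁ A : MulAut (PSU n F q)) ^ n) ∣ Nat.card B := (orderOf_pow_dvd n).trans h1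
    have h4 : orderOf ((f₁ A : MulAut (PSU n F q)) ^ n) ∣ Nat.card (PSU n F q) := by
      rw [← hg]
      exact (orderOf_map_dvd _ g).trans (orderOf_dvd_natCard g)
    exact Nat.dvd_one.1 (hcop ▸ Nat.dvd_gcd h3 h4)
  have h3 : orderOf (f₁ A : MulAut (PSU n F q)) ∣ n := orderOf_dvd_of_pow_eq_one (orderOf_eq_one_iff.1 h2)
  exact orderOf_eq_one_iff.1 (Nat.dvd_one.1 (hcopn ▸ Nat.dvd_gcd h1 h3))

/-- **Coprime groups of automorphisms of `PSU_n(q)` are cyclic, generated by a conjugate of a field automorphism.** -/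
theorem exists_field (hF : Fintype.card F = q ^ 2) (hn : 3 ≤ n) (h32 : ¬ (n = 3 ∧ q = 2))
    {B : Subgroup (MulAut (PSU n F q))}
    (hcop : (Nat.card B).Coprime (Nat.card (PSU n F q))) (hcopn : (Nat.card B).Coprime n)
    (hodd : Odd (Nat.card B)) [Finite (MulAut (PSU n F q))] :
    ∃ (M : GU n F q) (ρ : F ≃+* F), Odd (orderOf ρ) ∧
      ∀ a ∈ B, ∃ k : ℕ, a = f₁ M * f₂ (ρ ^ k) * (f₁ M)⁻¹ := by
  classical
  have hex : ∀ a : MulAut (PSU n F q), ∃ (A : GU n F q) (ρ : F ≃+* F), a = toAut A ρ := fun a =>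
    ClassicalGeometry.PSUAutMain.exists_toAut hF hn h32 a
  choose fA fR hAR using hex
  have huniq : ∀ (A A' : GU n F q) (ρ ρ' : F ≃+* F), toAut A ρ = toAut A' ρ' → ρ = ρ' := fun A A' ρ ρ' h =>
    (eq_of_toAut_eq hF hn h).1.symm
  let r : ↥B →* (F ≃+* F) :=
    { toFun := fun a => fR a.1
      map_one' := huniq (fA 1) 1 _ 1 ((hAR 1).symm.trans toAut_one.symm)
      map_mul' := fun a b => by
        apply huniq (fA (a * b : ↥B).1) (fA a.1 * mapGU (fR a.1) (fA b.1))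
        rw [← toAut_mul, ← hAR, ← hAR, ← hAR]; rfl }
  have hr : ∀ a : ↥B, ∃ A : GU n F q, a.1 = toAut A (r a) := fun a => ⟨fA a.1, hAR a.1⟩
  have hinj : Function.Injective r := by
    rw [injective_iff_map_eq_one]
    intro a ha
    obtain ⟨A, hA⟩ := hr a
    rw [ha] at hA
    apply Subtype.ext
    have h1 : f₁ A ∈ B := by
      show toAut A 1 ∈ B
      rw [← hA]; exact a.2
    have h2 := eq_one_of_lin hF hcop hcopn h1
    rw [hA]; exact h2
  have hcyc : IsCyclic (F ≃+* F) := LieRecognition.FieldSemilinear.isCyclic_ringAut F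
  have hcB : IsCyclic ↥B := isCyclic_of_injective r hinj
  obtain ⟨⟨a, haB⟩, ha⟩ := hcB.exists_generator
  obtain ⟨A, hA⟩ := hr ⟨a, haB⟩
  have hord : orderOf (r ⟨a, haB⟩) = orderOf a := by
    rw [orderOf_injective r hinj, Subgroup.orderOf_mk]
  have hoa : Odd (orderOf a) := by
    have h1 := orderOf_dvd_natCard (⟨a, haB⟩ : B)
    rw [Subgroup.orderOf_mk] at h1
    exact hodd.of_dvd_nat h1
  have hA' : a = toAut A (r ⟨a, haB⟩) := hA
  obtain ⟨M, hM⟩ := exists_conj hF hn hoa (A := A) (ρ := r ⟨a, haB⟩) (by rw [← hA']; exact pow_orderOf_eq_one a) hord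
  refine ⟨M, r ⟨a, haB⟩, by rw [hord]; exact hoa, ?_⟩
  intro b hb
  have h1 := ha ⟨b, hb⟩
  rw [← mem_powers_iff_mem_zpowers] at h1
  obtain ⟨k, hk⟩ := h1
  refine ⟨k, ?_⟩
  have h2 : a ^ k = b := congrArg Subtype.val hk
  have h3 : a = f₁ M * f₂ (r ⟨a, haB⟩) * (f₁ M)⁻¹ := hA'.trans hM
  rw [← h2, map_pow]
  conv_lhs => rw [h3]
  exact conj_pow

/-- A fixed element of trace one. -/
theorem exists_trace_one (hF : Fintype.card F = q ^ 2) [CharP F 2] (hρ : Odd (orderOf ρ)) :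
    ∃ b : F, ρ b = b ∧ b + b ^ q = 1 := by
  classical
  obtain ⟨c, hc⟩ := exists_trace_eq hF (c := (1 : F)) (one_pow q)
  refine ⟨∑ i ∈ Finset.range (orderOf ρ), (ρ ^ i) c, ?_, ?_⟩
  · rw [map_sum]
    have h1 : ∑ i ∈ Finset.range (orderOf ρ + 1), (ρ ^ i) c = ∑ i ∈ Finset.range (orderOf ρ), (ρ ^ (i + 1)) c + c := by
      rw [Finset.sum_range_succ', pow_zero]; rfl
    have h2 : ∑ i ∈ Finset.range (orderOf ρ + 1), (ρ ^ i) c = ∑ i ∈ Finset.range (orderOf ρ), (ρ ^ i) c + c := by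
      rw [Finset.sum_range_succ, pow_orderOf_eq_one]; rfl
    have h3 := add_right_cancel (h1.symm.trans h2)
    rw [← h3]
    refine Finset.sum_congr rfl fun i _ => ?_
    rw [pow_succ']; rfl
  · rw [sum_pow_q hF, ← Finset.sum_add_distrib]
    have h1 : ∀ i ∈ Finset.range (orderOf ρ), (ρ ^ i) c + ((ρ ^ i) c) ^ q = 1 := by
      intro i _
      rw [← map_pow, ← map_add, hc, map_one]
    rw [Finset.sum_congr rfl h1, Finset.sum_const, Finset.card_range, nsmul_one]
    obtain ⟨k, hk⟩ := hρ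
    rw [hk, Nat.cast_add, Nat.cast_mul, Nat.cast_one]
    have h2 : ((2 : ℕ) : F) = 0 := CharP.cast_eq_zero F 2
    rw [h2, zero_mul, zero_add]

/-- Field automorphisms and Siegel transformations. -/
theorem f₂_siegel (hF : Fintype.card F = q ^ 2) {u w : Fin n → F} {μ : F} (h : IsSiegel q u w μ)
    (hu : ∀ i, ρ (u i) = u i) (hw : ∀ i, ρ (w i) = w i) (hμ : ρ μ = μ) :
    f₂ ρ (pr n F q (siegel hF u w μ h)) = pr n F q (siegel hF u w μ h) := by
  show toAut 1 ρ (pr n F q (siegel hF u w μ h)) = _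
  rw [toAut_pr']
  congr 1
  apply mat_injective
  rw [mat_semiConj]
  show (siegelMat q u w μ).map ρ = siegelMat q u w μ
  ext i j
  simp only [siegelMat, Matrix.map_apply, Matrix.add_apply, Matrix.vecMulVec_apply, map_add, map_mul, map_sub,
    map_pow, hu, hw, hμ]
  congr 1
  rw [Matrix.one_apply]
  split_ifs
  · exact map_one ρ
  · exact map_zero ρ

/-- **`PSU₃(2ⁿ)`.** -/
theorem false_psu3 (hF : Fintype.card F = q ^ 2) [CharP F 2] (h32 : q ≠ 2)
    {B : Subgroup (MulAut (PSU 3 F q))}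
    (hcop : (Nat.card B).Coprime (Nat.card (PSU 3 F q))) (hcopn : (Nat.card B).Coprime 3)
    (hodd : Odd (Nat.card B)) (hC : AbTwo (fx B)) : False := by
  classical
  have hfin : Finite (PSU 3 F q) := inferInstance
  have hfin' : Finite (MulAut (PSU 3 F q)) := inferInstance
  obtain ⟨M, ρ, hρ, hB⟩ := exists_field hF le_rfl (fun h => h32 h.2) hcop hcopn hodd
  obtain ⟨b, hb, hb1⟩ := exists_trace_one hF hρ
  have h20 : (2 : F) = 0 := by exact_mod_cast CharP.cast_eq_zero F 2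
  have hbb : (b * b ^ q) ^ q = b * b ^ q := by rw [mul_pow, pow_q_pow_q hF, mul_comm]
  have hneg : ∀ x : F, -x = x := fun x => by linear_combination (-x) * h20
  -- the vectors
  obtain ⟨e, he⟩ : ∃ e : Fin 3 → F, e = ![1, 1, 0] := ⟨_, rfl⟩
  obtain ⟨w, hw⟩ : ∃ w : Fin 3 → F, w = ![0, 0, 1] := ⟨_, rfl⟩
  have hq0 : q ≠ 0 := by
    have := two_le hF
    omega
  have hee : hermForm 3 F q e e = 0 := by
    rw [herm_def, he, Fin.sum_univ_three]
    simp [hq0]
    linear_combination h20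
  have hwe : hermForm 3 F q w e = 0 := by
    rw [herm_def, he, hw, Fin.sum_univ_three]
    simp [hq0]
  have hww : hermForm 3 F q w w = 1 := by
    rw [herm_def, hw, Fin.sum_univ_three]
    simp [hq0]
  have hs1 : IsSiegel q e w b := ⟨hee, hwe, by rw [hww, hb1]; linear_combination h20⟩
  have hs2 : IsSiegel q e (b • w) (b * (b * b ^ q)) := by
    refine ⟨hee, by rw [herm_smul_left, hwe, mul_zero], ?_⟩
    rw [herm_smul_left, herm_smul_right, hww, mul_pow, hbb]
    linear_combination (b * b ^ q) * hb1 + (b * b ^ q) * h20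
  obtain ⟨x, hx⟩ : ∃ x, x = siegel hF e w b hs1 := ⟨_, rfl⟩
  obtain ⟨y, hy⟩ : ∃ y, y = siegel hF e (b • w) (b * (b * b ^ q)) hs2 := ⟨_, rfl⟩
  have hxG : x ∈ siegG hF e hee := ⟨_, _, hs1, hx⟩
  have hyG : y ∈ siegG hF e hee := ⟨_, _, hs2, hy⟩
  -- they do not commute
  have hxy : x * y ≠ y * x := by
    intro h
    rw [hx, hy, siegel_mul, siegel_mul] at h
    have h1 := congrFun (congrArg (fun g => act g (Pi.single 0 1)) h) 0
    simp only [act_siegel] at h1
    have h2 : hermForm 3 F q (Pi.single 0 1) e = 1 := by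
      rw [herm_def, he, Fin.sum_univ_three]
      simp
    have h3 : hermForm 3 F q (Pi.single 0 1) (w + b • w) = 0 := by
      rw [herm_def, hw, Fin.sum_univ_three]
      simp [hq0]
    have h4 : hermForm 3 F q (Pi.single 0 1) (b • w + w) = 0 := by
      rw [herm_def, hw, Fin.sum_univ_three]
      simp [hq0]
    rw [h2, h3, h4, herm_smul_left, herm_smul_right, hww] at h1
    have h5 : b ^ q = b := by
      have h6 : e 0 = 1 := by rw [he]; rfl
      have h7 : w 0 = 0 := by rw [hw]; rfl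
      simp only [Pi.add_apply, Pi.smul_apply, smul_eq_mul, h6, h7, Pi.single_eq_same] at h1
      linear_combination h1
    rw [h5] at hb1
    exact one_ne_zero (by rw [← hb1]; linear_combination b * h20)
  have hP := isPGroup_siegG hF 2 hee
  -- in the quotient
  have hpr : pr 3 F q x * pr 3 F q y ≠ pr 3 F q y * pr 3 F q x := by
    intro h
    rw [← map_mul, ← map_mul] at h
    apply hxy
    obtain ⟨k, hk⟩ := hP ⟨x * y, mul_mem hxG hyG⟩
    obtain ⟨l, hl⟩ := hP ⟨y * x, mul_mem hyG hxG⟩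
    exact eq_of_pr_eq hF le_rfl (congrArg Subtype.val hk) (congrArg Subtype.val hl) h
  have hfx : ∀ z, f₂ ρ z = z → (f₁ M : MulAut (PSU 3 F q)) z ∈ fx B := by
    intro z hz a ha
    obtain ⟨k, hk⟩ := hB a ha
    have h1 : ∀ k : ℕ, (f₂ (ρ ^ k) : MulAut (PSU 3 F q)) z = z := by
      intro k
      rw [map_pow]
      induction k with
      | zero => rfl
      | succ k ih => rw [pow_succ, MulAut.mul_apply, hz, ih]
    rw [hk]
    show f₁ M (f₂ (ρ ^ k) ((f₁ M)⁻¹ (f₁ M z))) = f₁ M z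
    rw [MulAut.inv_apply_self, h1]
  have he' : ∀ i, ρ (e i) = e i := by
    intro i
    rw [he]
    fin_cases i <;> simp
  have hw' : ∀ i, ρ (w i) = w i := by
    intro i
    rw [hw]
    fin_cases i <;> simp
  have hbw' : ∀ i, ρ ((b • w) i) = (b • w) i := by
    intro i
    rw [Pi.smul_apply, smul_eq_mul, map_mul, hb, hw']
  have hfx1 := hfx _ (f₂_siegel hF hs1 he' hw' hb)
  have hfx2 := hfx _ (f₂_siegel hF hs2 he' hbw' (by rw [map_mul, map_mul, map_pow, hb]))
  rw [← hx] at hfx1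
  rw [← hy] at hfx2
  -- the 2-group
  have hQ : IsPGroup 2 (((siegG hF e hee).map (pr 3 F q)).map (f₁ M : MulAut (PSU 3 F q)).toMonoidHom) :=
    (hP.map _).map _
  have hcl : Subgroup.closure {(f₁ M : MulAut (PSU 3 F q)) (pr 3 F q x), (f₁ M : MulAut (PSU 3 F q)) (pr 3 F q y)} ≤
      ((siegG hF e hee).map (pr 3 F q)).map (f₁ M : MulAut (PSU 3 F q)).toMonoidHom := by
    rw [Subgroup.closure_le]
    rintro _ (rfl | rfl)
    · exact ⟨_, ⟨x, hxG, rfl⟩, rfl⟩
    · exact ⟨_, ⟨y, hyG, rfl⟩, rfl⟩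
  have h1 := hC _ (by
    rw [Subgroup.closure_le]
    rintro _ (rfl | rfl)
    · exact hfx1
    · exact hfx2) (hQ.to_le hcl) _ (Subgroup.subset_closure (Or.inl rfl)) _ (Subgroup.subset_closure (Or.inr rfl))
  apply hpr
  apply (f₁ M : MulAut (PSU 3 F q)).injective
  exact (map_mul _ _ _).trans (h1.trans (map_mul _ _ _).symm)

end Cfsg.Agent.H485.Psu2
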