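import Mathlib
import Cfsg.Agent.H485.BNFix
import Cfsg.Agent.H485.Adm
import Cfsg.Agent.Schreier.TwFFour
import Cfsg.Agent.ChevalleyStructure.TwF4.BNIrred
import Cfsg.Agent.ChevalleyStructure.TwF4.WeylDih
import Cfsg.Agent.S1072

/-!
# Coprime groups of automorphisms of `²F₄(q)` (helper485)

`false_twF4` : the 2-subgroups of the fixed points are not all abelian.
-/

set_option autoImplicit false
set_option linter.unusedSectionVars false

namespace Cfsg.Agent.H485.TwF4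

open Cfsg.Lie
open Cfsg.Agent.ChevalleyStructure.TwF4.Rel
open Cfsg.Agent.ChevalleyStructure.TwF4.Groups Cfsg.Agent.ChevalleyStructure.TwF4.RankOne
open Cfsg.Agent.ChevalleyStructure.TwF4.Twisted Cfsg.Agent.ChevalleyStructure.TwF4.TwistedFix
open Cfsg.Agent.ChevalleyStructure.TwF4.BN
open Cfsg.Agent.ChevalleyStructure.TwF4.Torus (T chi T_conj_X T_inr)
open Cfsg.Agent.ChevalleyStructure.TwF4.TwGen (tc chi_tc_24 chi_tc_25 chi_tc_33 chi_tc_27 chi28 chi30 pow_all)
open Cfsg.Agent.ChevalleyStructure.TwF4.TorusFix (mem_iff pow_unit T_rt rt)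
open Cfsg.Agent.ChevalleyStructure.TwF4.Fix (Fix)
open Cfsg.Agent.ChevalleyStructure.TwF4.NStruct (R permHom permHom_eq_one_iff)
open Cfsg.Agent.ChevalleyStructure.TwF4.NRoot (P1 P2 P1_val P2_val permHom_n1 permHom_n2)
open Cfsg.Agent.ChevalleyStructure.TwF4.WeylDih (P_pow)
open Cfsg.Agent.Schreier.Basic Cfsg.Agent.Schreier.Tools Cfsg.Agent.Schreier.BNSch Cfsg.Agent.Schreier.BNUse
open Cfsg.Agent.Schreier.TwFFour
open Cfsg.Agent.Tits.OfBN (WP normal_subgroupOf mk_eq_iff)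
open Cfsg.Agent.H485.Weyl (AbTwo NonAb)
open Cfsg.Agent.H485.Frame (fx)

theorem exists_pair {K : Type*} [Field K] [Fintype K] {m : ℕ} (hm : 1 ≤ m) (hK : Fintype.card K = 2 ^ (2 * m + 1)) :
    ∃ (P : Cfsg.BNPair ↥(twistedF4 K (2 ^ m))) (U : Subgroup ↥(twistedF4 K (2 ^ m)))
      (_ : ((P.B ⊓ P.N).subgroupOf P.N).Normal), FixBN.Split P 2 U ∧ Nat.card P.S ≤ 2 ∧ NonAb (WP P) := by
  have : CharP K 2 := charP_two hK
  have : Fact (Nat.Prime 2) := ⟨Nat.prime_two⟩
  obtain ⟨φ, hφ⟩ := exists_rln hK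
  obtain ⟨P, hPB, hPN, -, hPS⟩ := Cfsg.Agent.ChevalleyStructure.TwF4.BNIrred.exists_bnPair_irreducible hφ
  have hB : P.B = B0 K (2 ^ m) := hPB
  have hdec := dec hK hφ
  have hUp := isPGroup_U0 hK
  have hN : ((P.B ⊓ P.N).subgroupOf P.N).Normal := normal_subgroupOf P
  obtain ⟨s1, hs1⟩ : ∃ s1 : ↥(twistedF4 K (2 ^ m)), s1 = ⟨n1 K, n1_mem⟩ := ⟨_, rfl⟩
  obtain ⟨s2, hs2⟩ : ∃ s2 : ↥(twistedF4 K (2 ^ m)), s2 = ⟨n2 K, n2_mem hφ.pos⟩ := ⟨_, rfl⟩
  have hs1S : s1 ∈ P.S := by rw [hPS, hs1]; exact Or.inl rfl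
  have hs2S : s2 ∈ P.S := by rw [hPS, hs2]; exact Or.inr rfl
  have node_1 : Cfsg.Agent.Schreier.BNSch.Node P (U0 K (2 ^ m)) s1 (V1 K (2 ^ m)) := by
    rw [hs1]; exact node1 hφ hB
  have node_2 : Cfsg.Agent.Schreier.BNSch.Node P (U0 K (2 ^ m)) s2 (V8 K (2 ^ m)) := by
    rw [hs2]; exact node2 hφ hB
  have hTm : ∀ s t : Kˣ, T (tc (2 ^ m) s t) ∈ twistedF4 K (2 ^ m) := fun s t => hdec.2 s t
  refine ⟨P, U0 K (2 ^ m), hN, ?_, ?_, ?_⟩
  · exact
    { le := by rw [hB]; exact U0_le_B0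
      norm := fun b hb u hu => by
        rw [hB] at hb
        exact conj_U0 hb hu
      isP := hUp
      cover := fun b hb => by
        rw [hB] at hb
        obtain ⟨s, t, u, hu, hbu⟩ := hdec.1 b hb
        refine ⟨u, hu, ?_⟩
        rw [hPN, Subgroup.mem_subgroupOf, Subgroup.coe_mul, Subgroup.coe_inv, hbu, inv_mul_cancel_left]
        exact Cfsg.Agent.ChevalleyStructure.TwF4.NStruct.T_mem_N _
      tor := ⟨2 ^ (2 * m + 1) - 1, by
        have h1 : 2 ∣ 2 ^ (2 * m + 1) := dvd_pow_self 2 (by omega)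
        have h2 : 0 < 2 ^ (2 * m + 1) := by positivity
        omega, fun h hh hN => by
        rw [hPB, Subgroup.mem_subgroupOf] at hh
        rw [hPN, Subgroup.mem_subgroupOf] at hN
        have h1 := borel_inf_N ⟨hh, hN⟩
        obtain ⟨s, t, hst⟩ := (mem_iff hK (h : GL chevF4.Idx K)).1 ⟨h1, h.2⟩
        apply Subtype.ext
        rw [Subgroup.coe_pow, hst, ← map_pow]
        have h2 : tc (2 ^ m) s t ^ (2 ^ (2 * m + 1) - 1) = 1 := by
          have h3 : ∀ x : Kˣ, x ^ (2 ^ (2 * m + 1) - 1) = 1 := by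
            intro x
            have h4 := pow_card_eq_one' (x := x)
            rwa [Nat.card_units, Nat.card_eq_fintype_card, hK] at h4
          funext l
          rw [Pi.pow_apply, h3]; rfl
        rw [h2, map_one]; rfl⟩
      node := by
        intro s hs
        rw [hPS] at hs
        rcases hs with h | h
        · rw [h, ← hs1]; exact ⟨_, node_1⟩
        · rw [Set.mem_singleton_iff] at h
          rw [h, ← hs2]; exact ⟨_, node_2⟩
      core := by
        obtain ⟨hsimp, -⟩ := Cfsg.Agent.S1072.result hm hK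
        rcases hsimp.eq_bot_or_eq_top_of_normal P.B.normalCore inferInstance with h | h
        · exact h
        · exfalso
          have h1 : P.B = ⊤ := by
            rw [eq_top_iff, ← h]
            exact Subgroup.normalCore_le _
          obtain ⟨u, hu, huV⟩ := node_1.ne
          exact huV (node_1.stab u hu (by rw [h1]; exact Subgroup.mem_top _)) }
  · rw [hPS, Nat.card_coe_set_eq]
    refine (Set.ncard_insert_le _ _).trans ?_
    rw [Set.ncard_singleton]
  · have hn1 : (⟨s1, P.subset hs1S⟩ : P.N) ∈ (⊤ : Subgroup P.N) := trivial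
    have hsq1 : (QuotientGroup.mk (⟨s1, P.subset hs1S⟩ : P.N) : WP P) *
        QuotientGroup.mk (⟨s1, P.subset hs1S⟩ : P.N) = 1 := by
      rw [← QuotientGroup.mk_mul, ← QuotientGroup.mk_one, eq_comm, mk_eq_iff]
      simpa using P.sq_mem s1 hs1S
    have hsq2 : (QuotientGroup.mk (⟨s2, P.subset hs2S⟩ : P.N) : WP P) *
        QuotientGroup.mk (⟨s2, P.subset hs2S⟩ : P.N) = 1 := by
      rw [← QuotientGroup.mk_mul, ← QuotientGroup.mk_one, eq_comm, mk_eq_iff]
      simpa using P.sq_mem s2 hs2S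
    refine ⟨_, _, hsq1, hsq2, ?_, ?_⟩
    · rw [← QuotientGroup.mk_mul, ← QuotientGroup.mk_pow, ← QuotientGroup.mk_one, eq_comm, mk_eq_iff]
      have h1 : permHom K ((⟨n1 K, n1_mem_N⟩ * ⟨n2 K, n2_mem_N⟩ : ↥(chevF4.monomialSubgroup K)) ^ 2 ^ 3) = 1 := by
        rw [map_pow, map_mul, permHom_n1, permHom_n2]
        exact P_pow
      have h2 := H_le_borel ((permHom_eq_one_iff _).1 h1)
      rw [hPB, Subgroup.mem_subgroupOf]
      subst hs1 hs2
      simpa using h2
    · intro h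
      have h1 : (QuotientGroup.mk (⟨s1, P.subset hs1S⟩ * ⟨s2, P.subset hs2S⟩ * ⟨s1, P.subset hs1S⟩⁻¹ *
          ⟨s2, P.subset hs2S⟩⁻¹ : P.N) : WP P) = QuotientGroup.mk 1 := by
        rw [QuotientGroup.mk_mul, QuotientGroup.mk_mul, QuotientGroup.mk_mul, QuotientGroup.mk_inv,
          QuotientGroup.mk_inv, h, mul_inv_cancel_right, mul_inv_cancel]
        rfl
      rw [eq_comm, mk_eq_iff] at h1
      apply Cfsg.Agent.ChevalleyStructure.TwF4.BNIrred.comm_not_mem (K := K)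
      rw [hPB, Subgroup.mem_subgroupOf] at h1
      subst hs1 hs2
      simpa using h1

/-- **`²F₄(q)`.** -/
theorem false_twF4 {G : Type*} [Group G] (h : Iso2F4 G) (hG : Adm.Adm G) : False := by
  obtain ⟨K, i1, i2, m, hm, hK, ⟨e⟩⟩ := h
  have : Fact (Nat.Prime 2) := ⟨Nat.prime_two⟩
  obtain ⟨A, hcop, hs, hC⟩ := hG.congr e
  have hfin : Finite ↥(twistedF4 K (2 ^ m)) := inferInstance
  obtain ⟨P, U, hN, S, h2, hW⟩ := exists_pair hm hK
  have hdvd : 2 ∣ Nat.card ↥(twistedF4 K (2 ^ m)) := by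
    by_contra h3
    have hodd : Odd (Nat.card ↥(twistedF4 K (2 ^ m))) := by
      rw [← Nat.not_even_iff_odd, even_iff_two_dvd]
      exact h3
    obtain ⟨x, y, hx, hy, hxy, hne⟩ := hW
    have hodd' : Odd (Nat.card (WP P)) :=
      hodd.of_dvd_nat ((Subgroup.card_quotient_dvd_card _).trans (Subgroup.card_subgroup_dvd_card _))
    have key : ∀ z : WP P, z * z = 1 → z = 1 := by
      intro z hz
      obtain ⟨k, hk⟩ := hodd'
      have h5 : z ^ Nat.card (WP P) = 1 := pow_card_eq_one'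
      rw [hk, pow_succ, pow_mul, pow_two, hz, one_pow, one_mul] at h5
      exact h5
    rw [key x hx, key y hy] at hne
    exact hne rfl
  exact BNFix.not_nonAb S h2 hcop hs (Adm.odd_of_coprime hcop hdvd) hC hW

end Cfsg.Agent.H485.TwF4
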