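import Cfsg.Agent.H485.OddRank
import Cfsg.Agent.H485.Psu2
import Cfsg.Agent.H485.TwF4
import Cfsg.Agent.H485.Adm
import Cfsg.Agent.H478.WalterAll
import Cfsg.Agent.ThreePrime.Main
import Cfsg.Agent.GH.Cov.SylowThree
import Cfsg.Agent.S0205

/-!
# The groups of Lie type with a coprime group of automorphisms whose fixed points have abelian 2-subgroups (helper485)

* `InList` : `PSL₂(2ⁿ)`, `PSL₂(qⁿ)` with `q ≡ 3, 5 mod 8`, the Suzuki groups, the Ree groups, `J₁`;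
* `inList_of_lie` : the simple groups of Lie type with `Adm` are in the list.
-/

set_option autoImplicit false
set_option linter.unusedSectionVars false

namespace Cfsg.Agent.H485.LieCase

open Cfsg Cfsg.Agent.H485.Frame Cfsg.Agent.H485.Weyl Cfsg.Agent.H485.TypList Cfsg.Agent.H485.Rgd
  Cfsg.Agent.H485.Gen Cfsg.Agent.H485.OddRank Cfsg.Agent.H485.Adm Cfsg.Agent.H485.Nodes
open Cfsg.Agent.Omega.ML.Ex.Typ Cfsg.Agent.Tits.Core

/-- The list of S3944. -/
def InList (G : Type*) [Group G] : Prop :=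
  (∃ (F : Type) (_ : Field F) (_ : Fintype F), ((∃ n : ℕ, 2 ≤ n ∧ Fintype.card F = 2 ^ n) ∨
    (∃ q n : ℕ, IsPrimePow q ∧ (q % 8 = 3 ∨ q % 8 = 5) ∧ 1 ≤ n ∧ Fintype.card F = q ^ n ∧ Fintype.card F ≠ 3)) ∧
    Nonempty (G ≃* Matrix.ProjectiveSpecialLinearGroup (Fin 2) F)) ∨
  Cfsg.Lie.IsoSuzuki G ∨ Cfsg.Lie.IsoRee G ∨ Cfsg.Spor.IsoJ1 G

theorem InList.congr {G H : Type*} [Group G] [Group H] (e : H ≃* G) (h : InList G) : InList H := by
  rcases h with ⟨F, i1, i2, hF, ⟨f⟩⟩ | ⟨K, i1, i2, m, hm, hK, ⟨f⟩⟩ | ⟨K, i1, i2, m, hm, hK, ⟨f⟩⟩ | h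
  · exact Or.inl ⟨F, i1, i2, hF, ⟨e.trans f⟩⟩
  · exact Or.inr (Or.inl ⟨K, i1, i2, m, hm, hK, ⟨e.trans f⟩⟩)
  · exact Or.inr (Or.inr (Or.inl ⟨K, i1, i2, m, hm, hK, ⟨e.trans f⟩⟩))
  · obtain ⟨f⟩ := h
    exact Or.inr (Or.inr (Or.inr ⟨e.trans f⟩))

/-- Abelian Sylow 2-subgroups. -/
theorem inList_of_abelian {G : Type*} [Group G] [Finite G] [IsSimpleGroup G] (hG : ¬ IsMulCommutative G)
    (S : Sylow 2 G) (hS : IsMulCommutative (S : Subgroup G)) : InList G := by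
  have h1 : ∀ a ∈ (S : Subgroup G), ∀ b ∈ (S : Subgroup G), a * b = b * a := fun a ha b hb =>
    congrArg Subtype.val (isMulCommutative_iff.1 hS ⟨a, ha⟩ ⟨b, hb⟩)
  rcases H478.WalterAll.iso_of_abelian hG S h1 with ⟨F, i1, i2, n, hn, hF, hf⟩ | ⟨F, i1, i2, h8, h5, hf⟩ | h | h
  · exact Or.inl ⟨F, i1, i2, Or.inl ⟨n, hn, hF⟩, hf⟩
  · refine Or.inl ⟨F, i1, i2, Or.inr ⟨Fintype.card F, 1, ?_, h8, le_rfl, (pow_one _).symm, by omega⟩, hf⟩
    exact FiniteField.isPrimePow_card F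
  · exact Or.inr (Or.inr (Or.inl h))
  · exact Or.inr (Or.inr (Or.inr h))

theorem two_dvd {K : Type*} [Group K] [Finite K] [IsSimpleGroup K] (hna : ¬ IsMulCommutative K) :
    2 ∣ Nat.card K := by
  by_contra h2
  have hs : Group.IsSolvable K := S0205.result (Nat.not_even_iff_odd.1 fun h3 => h2 (even_iff_two_dvd.1 h3))
  exact hna (isMulCommutative_iff.2 fun a b => IsSimpleGroup.comm_iff_isSolvable.2 hs a b)

/-- **The groups of Lie type.** -/
theorem inList_of_lie {K : Type*} [Group K] [Finite K] [IsSimpleGroup K] (hna : ¬ IsMulCommutative K) {p : ℕ}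
    (hp : p.Prime) (h : IsLieTypeChar p K) (hA : Adm.Adm K) : InList K := by
  have hpf : Fact p.Prime := ⟨hp⟩
  have h2f : Fact (Nat.Prime 2) := ⟨Nat.prime_two⟩
  by_cases hSz : Cfsg.Lie.IsoSuzuki K
  · exact Or.inr (Or.inl hSz)
  have h2 := two_dvd hna
  have h3 : 3 ∣ Nat.card K := by
    by_contra h3
    exact hSz (ThreePrime.Main.isoSuzuki' hna h3)
  obtain ⟨S⟩ : Nonempty (Sylow 2 K) := inferInstance
  have hodd : ∀ (F : Type) [Field F] [Fintype F] [CharP F p], p ≠ 2 → Odd (Fintype.card F) := by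
    intro F _ _ _ hp2
    obtain ⟨n, -, hn⟩ := FiniteField.card F p
    rw [hn]
    exact (hp.odd_of_ne_two hp2).pow
  have ab : (∀ Q : Sylow 2 K, Triv6 (Q : Subgroup K)) → InList K := by
    intro hT
    obtain ⟨A, hcop, hs, hC⟩ := hA
    exact inList_of_abelian hna S (sylow_comm_top hcop hs (coprime_six hcop h2 h3) hC hT S)
  rcases list_of_lie h with h | ⟨F, i1, i2, i3, h4, ⟨e⟩⟩ | ⟨F, i1, i2, i3, ⟨e⟩⟩ | ⟨F, i1, i2, i3, q, hF, hq, ⟨e⟩⟩ |
    ⟨F, i1, i2, i3, ⟨e⟩⟩ | ⟨F, i1, i2, i3, q, hq, hF, ⟨e⟩⟩ | ⟨-, h⟩ | ⟨-, h⟩ | ⟨-, h⟩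
  · exfalso
    obtain ⟨A, hcop, hs, hC⟩ := hA
    exact false_of_badRGD hna h A hcop hs (coprime_six hcop h2 h3) hC
  · -- `PSL₂`
    rcases eq_or_ne p 2 with rfl | hp2
    · obtain ⟨n, -, hn⟩ := FiniteField.card F 2
      refine Or.inl ⟨F, i1, i2, Or.inl ⟨n, ?_, hn⟩, ⟨e⟩⟩
      by_contra hlt
      have h5 : (n : ℕ) ≤ 1 := by omega
      have h6 : 2 ^ (n : ℕ) ≤ 2 ^ 1 := Nat.pow_le_pow_right (by norm_num) h5
      omega
    · exact ab fun Q => triv6_psl2 (hodd F hp2) e Q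
  · -- `PSL₃`
    rcases eq_or_ne p 2 with rfl | hp2
    · exfalso
      obtain ⟨A, hcop, hs, hC⟩ := hA
      refine false_of_two hna ((typ_PSL 2).of_equiv e.symm) rigid_cA (i := 0) (j := 1) (by decide) ?_ A hcop hs
        (coprime_six hcop h2 h3) hC
      rw [cA_apply]
      decide
    · exact ab fun Q => triv6_of_qdw (GH.Cov.SylowThree.psl_three (hodd F hp2) e h2 Q)
  · -- `PSU₃`
    rcases eq_or_ne p 2 with rfl | hp2
    · exfalso
      obtain ⟨A, hcop, hs, hC⟩ := hA.congr e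
      have hc := Nat.card_congr e.toEquiv
      refine Psu2.false_psu3 hF hq hcop ?_ (odd_of_coprime hcop (hc ▸ h2)) hC
      exact hcop.coprime_dvd_right (hc ▸ h3)
    · refine ab fun Q => triv6_of_qdw (GH.Cov.SylowThree.psu_three hF ?_ e Q)
      have := hodd F hp2
      rw [hF] at this
      exact Nat.Odd.of_mul_left (by rwa [pow_two] at this)
  · -- `G₂`
    exfalso
    rcases eq_or_ne p 2 with rfl | hp2
    · obtain ⟨A, hcop, hs, hC⟩ := hA
      exact false_of_two hna ((typ_group isType_G2 F 2).of_equiv e.symm) (fun _ => rigid_of_card_le _ (by simp))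
        (i := 0) (j := 1) (by decide) (by decide) A hcop hs (coprime_six hcop h2 h3) hC
    · obtain ⟨A, hcop, hs, hC⟩ := hA.congr e
      have hc := Nat.card_congr e.toEquiv
      have hsimp : IsSimpleGroup ↥(Lie.chevG2.group F) := e.symm.isSimpleGroup
      refine false_chevG2 (hodd F hp2) p (fun h => hna ?_) A hcop hs (coprime_six hcop (hc ▸ h2) (hc ▸ h3)) hC
      exact isMulCommutative_iff.2 fun a b => e.injective (by
        rw [map_mul, map_mul]; exact isMulCommutative_iff.1 h _ _)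
  · -- `³D₄`
    exfalso
    rcases eq_or_ne p 2 with rfl | hp2
    · obtain ⟨A, hcop, hs, hC⟩ := hA
      exact false_of_two hna ((typ_twD4 hq hF 2).of_equiv e.symm) (fun _ => rigid_of_card_le _ (by simp))
        (i := 0) (j := 1) (by decide) (by decide) A hcop hs (coprime_six hcop h2 h3) hC
    · obtain ⟨A, hcop, hs, hC⟩ := hA.congr e
      have hc := Nat.card_congr e.toEquiv
      have hsimp : IsSimpleGroup ↥(Lie.twistedD4 F q) := e.symm.isSimpleGroup
      refine false_twD4 (hodd F hp2) p hq hF (fun h => hna ?_) A hcop hs (coprime_six hcop (hc ▸ h2) (hc ▸ h3)) hC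
      exact isMulCommutative_iff.2 fun a b => e.injective (by
        rw [map_mul, map_mul]; exact isMulCommutative_iff.1 h _ _)
  · exact Or.inr (Or.inl h)
  · exact (TwF4.false_twF4 h hA).elim
  · exact Or.inr (Or.inr (Or.inl h))

end Cfsg.Agent.H485.LieCase
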