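import Cfsg.Agent.H485.Rgd
import Cfsg.Agent.H485.Gen
import Cfsg.Agent.KFacts.RgdChevCoord
import Cfsg.Agent.Nodes.RGDFoldSL
import Cfsg.Agent.Nodes.ChevCls
import Cfsg.Agent.ChevalleyStructure.CardBruhat
import Cfsg.Agent.Mrg.ParSys.Fam.D4

/-!
# `G₂(q)` and `³D₄(q)`, `q` odd: coprime groups of automorphisms have fixed quaternion groups

* `false_of_node` : `A` fixes the frame and the nodes, `⟨X α_i, X -α_i⟩` is the image of `SL₂(K)`, `K` of odd order, with
  `-1` not in the kernel;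
* `false_G2`, `false_twD4`.
-/

set_option autoImplicit false
set_option linter.unusedSectionVars false

open scoped Pointwise

namespace Cfsg.Agent.H485.OddRank

open CoxeterSystem Cfsg.Agent.ChevalleyStructure.CoxeterGeom Cfsg.Agent.Tits.Roots Cfsg.Agent.Tits.Core
  Cfsg.Agent.Nodes.Reps Cfsg.Agent.Nodes.BNOf Cfsg.Agent.Nodes.Bruhat Cfsg.Agent.Nodes.OppDec
  Cfsg.Agent.KFacts.RgdAut Cfsg.Agent.KFacts.RgdDiag Cfsg.Agent.KFacts.RgdCharP Cfsg.Agent.H485.Frame
  Cfsg.Agent.H485.Weyl Cfsg.Agent.H485.Nodes Cfsg.Agent.H485.Rgd Cfsg.Agent.Nodes.RGDFoldSL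
open Cfsg.Lie Cfsg.Agent.ChevalleyStructure
open Cfsg.Agent.ChevalleyStructure.SL2Hom (up lo mem_closure_SL2)

theorem hS_neg_one {F : Type*} [Field F] : (hS (-1) : Matrix.SpecialLinearGroup (Fin 2) F) = -1 := by
  apply Subtype.ext
  rw [coe_hS (neg_ne_zero.2 one_ne_zero)]
  ext i j
  fin_cases i <;> fin_cases j <;> simp [inv_neg]

section

variable {I W Y : Type*} [Fintype I] [DecidableEq I] [Group W] [Group Y] {M : CoxeterMatrix I}
  {cs : CoxeterSystem M W} {C : I → I → ℤ} {h : IsCartan M C} {p : ℕ} {T : Subgroup Y} {n : I → Y}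
  {X : (I → ℤ) → Subgroup Y}

theorem false_of_node [Finite W] [Finite Y] (R : RGD cs h p T n X) {A : Subgroup (MulAut Y)} (S : SetUp R A)
    (h6 : (Nat.card A).Coprime 6) (hC : AbTwo (fx A)) {K : Type*} [Field K] [Fintype K] (hK : Odd (Fintype.card K))
    (f : Matrix.SpecialLinearGroup (Fin 2) K →* Y) {i : I} (hX : ∀ g, g ∈ X (sr i) ↔ ∃ a, g = f (up a))
    (hw : f (wS 1) = n i) (h1 : f (-1) ≠ 1) : False := by
  have hneg : ∀ g, g ∈ X (-sr i) ↔ ∃ a, g = f (lo a) := by
    intro g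
    have h3 := R.conj i (sr i) (isRoot_sr cs h i)
    rw [rep_simple_sr] at h3
    rw [← h3, mem_cj, hX]
    constructor
    · rintro ⟨a, ha⟩
      refine ⟨-a, ?_⟩
      rw [lo_eq, neg_neg, map_mul, map_mul, map_inv, hw, ← ha]
      group
    · rintro ⟨a, rfl⟩
      refine ⟨-a, ?_⟩
      rw [lo_eq, map_mul, map_mul, map_inv, hw]
      group
  have hrange : f.range = X (sr i) ⊔ X (-sr i) := by
    apply le_antisymm
    · rintro _ ⟨g, rfl⟩
      have h2 : Subgroup.closure (Set.range (up (F := K)) ∪ Set.range (lo (F := K))) ≤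
          (X (sr i) ⊔ X (-sr i)).comap f := by
        rw [Subgroup.closure_le]
        rintro _ (⟨a, rfl⟩ | ⟨a, rfl⟩)
        · exact Subgroup.mem_sup_left ((hX _).2 ⟨a, rfl⟩)
        · exact Subgroup.mem_sup_right ((hneg _).2 ⟨a, rfl⟩)
      exact h2 (mem_closure_SL2 g)
    · refine sup_le (fun g hg => ?_) (fun g hg => ?_)
      · obtain ⟨a, rfl⟩ := (hX g).1 hg
        exact ⟨_, rfl⟩
      · obtain ⟨a, rfl⟩ := (hneg g).1 hg
        exact ⟨_, rfl⟩
  refine Gen.false_of_sl2 S.cop S.solv h6 hC hK f h1 ?_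
  intro a ha x hx
  rw [hrange] at hx ⊢
  have h2 : X (sr i) ⊔ X (-sr i) ≤ (X (sr i) ⊔ X (-sr i)).comap a.toMonoidHom :=
    sup_le (fun u hu => Subgroup.mem_sup_left (((S.diag a ha).pos i u).2 hu))
      (fun u hu => Subgroup.mem_sup_right (((S.diag a ha).neg i u).2 hu))
  exact h2 hx

end

/-! ### `G₂(q)` -/

section GTwo

open Cfsg.Agent.Nodes.RGDChev Cfsg.Agent.KFacts.RgdChevCoord
open Cfsg.Agent.ChevalleyStructure.Elts Cfsg.Agent.ChevalleyStructure.NPerm
  Cfsg.Agent.ChevalleyStructure.CoxeterGeomTypes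

theorem isType_G2 : IsType chevG2 2 CoxeterMatrix.G₂ := by
  simp [IsType, typeList]

theorem two_ne_zero_of_odd {K : Type*} [Field K] [Fintype K] (hK : Odd (Fintype.card K)) : (2 : K) ≠ 0 := by
  intro h0
  have h3 : CharP K 2 := CharTwo.of_one_ne_zero_of_two_eq_zero one_ne_zero h0
  obtain ⟨k, -, hk⟩ := FiniteField.card K 2
  rw [hk] at hK
  exact absurd hK (by
    rw [Nat.not_odd_iff_even]
    exact (even_two).pow_of_ne_zero k.ne_zero)

theorem neg_one_ne_one_of_odd {K : Type*} [Field K] [Fintype K] (hK : Odd (Fintype.card K)) : (-1 : K) ≠ 1 := by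
  intro h
  apply two_ne_zero_of_odd hK
  linear_combination -h

theorem false_chevG2 {F : Type} [Field F] [Fintype F] (hF : Odd (Fintype.card F)) (p : ℕ) [CharP F p]
    [IsSimpleGroup ↥(chevG2.group F)] (hna : ¬ IsMulCommutative ↥(chevG2.group F))
    (A : Subgroup (MulAut ↥(chevG2.group F)))
    (hcop : (Nat.card A).Coprime (Nat.card ↥(chevG2.group F))) (hs : Group.IsSolvable A)
    (h6 : (Nat.card A).Coprime 6) (hC : AbTwo (fx A)) : False := by
  have : Fact p.Prime := ⟨CharP.char_is_prime F p⟩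
  have : Finite CoxeterMatrix.G₂.Group := finite_W isType_G2 CoxeterMatrix.G₂.toCoxeterSystem
  have R := rgd (K := F) isType_G2 CoxeterMatrix.G₂.toCoxeterSystem p
  obtain ⟨g, S⟩ := exists_setUp hna R (G1_eq_top isType_G2 _)
    (fun _ => rigid_of_card_le _ (by simp)) A hcop hs h6
  have hlt : chevG2.simple ((0 : Fin 2) : ℕ) < chevG2.nroots := simple_lt isType_G2.inList (lt_rank isType_G2 (0 : Fin 2))
  have hlt1 : chevG2.simple ((1 : Fin 2) : ℕ) < chevG2.nroots := simple_lt isType_G2.inList (lt_rank isType_G2 (1 : Fin 2))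
  let f : Matrix.SpecialLinearGroup (Fin 2) F →* ↥(chevG2.group F) :=
    (psi isType_G2.inList F (chevG2.simple ((0 : Fin 2) : ℕ))).codRestrict (chevG2.group F) (fun g =>
      (sup_le (ChevalleyStructure.CardBruhat.Pair.rootSubgroup_le_group isType_G2.inList _)
        (ChevalleyStructure.CardBruhat.Pair.rootSubgroup_le_group isType_G2.inList _)) (psi_mem isType_G2.inList hlt g))
  refine false_of_node R S (by rwa [card_conj_smul]) (abTwo_conj hC g) hF f (i := 0) ?_ ?_ ?_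
  · intro y
    rw [← vec_simple isType_G2 0]
    rw [Nodes.ChevCls.mem_XX isType_G2 hlt]
    refine exists_congr fun a => ?_
    have h1 : xc isType_G2 (vec chevG2 2 (chevG2.simple ((0 : Fin 2) : ℕ))) a = f (up a) := by
      apply Subtype.ext
      rw [coe_xc isType_G2 hlt]
      exact (psi_up isType_G2.inList hlt a).symm
    rw [h1]
  · apply Subtype.ext
    exact psi_wS isType_G2.inList hlt 1
  · intro h1
    have h2 : hc isType_G2 (0 : Fin 2) (-1 : F) = 1 := by
      rw [← h1, ← hS_neg_one]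
      apply Subtype.ext
      exact (psi_hS isType_G2.inList hlt (-1)).symm
    have h3 := ch_hc isType_G2 (K := F) (0 : Fin 2) (a := -1) (neg_ne_zero.2 one_ne_zero) hlt1
    have h4 : ch isType_G2 (vec chevG2 2 (chevG2.simple ((1 : Fin 2) : ℕ))) (1 : ↥(chevG2.group F)) = 1 := by
      refine ch_eq isType_G2 hlt1 (one_mem _) ?_
      rw [one_mul, inv_one, mul_one]
    rw [h2, h4] at h3
    have h5 : Odd (chevG2.cartan ((0 : Fin 2) : ℕ) (chevG2.simple ((1 : Fin 2) : ℕ))) := by decide +kernel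
    rw [h5.neg_one_zpow] at h3
    exact neg_one_ne_one_of_odd hF h3.symm

end GTwo

/-! ### `³D₄(q)` -/

section DFour

open Cfsg.Agent.KFacts.TwDFour.Out

theorem false_twD4 {K : Type} [Field K] [Fintype K] (hF : Odd (Fintype.card K)) (p : ℕ) [CharP K p] {q : ℕ}
    (hq : IsPrimePow q) (hK : Fintype.card K = q ^ 3)
    [IsSimpleGroup ↥(twistedD4 K q)] (hna : ¬ IsMulCommutative ↥(twistedD4 K q))
    (A : Subgroup (MulAut ↥(twistedD4 K q)))
    (hcop : (Nat.card A).Coprime (Nat.card ↥(twistedD4 K q))) (hs : Group.IsSolvable A)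
    (h6 : (Nat.card A).Coprime 6) (hC : AbTwo (fx A)) : False := by
  have : Fact p.Prime := ⟨CharP.char_is_prime K p⟩
  obtain ⟨φ, hφ⟩ := ChevalleyStructure.D4Fixed.exists_frob hq hK
  have : Finite CoxeterMatrix.G₂.Group :=
    Nodes.RGDFold.finite_W (hp := Nodes.RGDTwD4.hp) CoxeterMatrix.G₂.toCoxeterSystem Nodes.RGDTwD4.isCartan
      Nodes.RGDTwD4.foldData
  have R := Nodes.RGDTwD4.rgd CoxeterMatrix.G₂.toCoxeterSystem hK hφ p
  obtain ⟨g, S⟩ := exists_setUp hna R (Nodes.RGDTwD4.G1_eq_top _ hK hφ)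
    (fun _ => rigid_of_card_le _ (by simp)) A hcop hs h6
  let iK : Fintype (KD φ 0) := Fintype.ofFinite _
  have hodd : Odd (Fintype.card (KD φ 0)) := by
    have h1 := Module.card_eq_pow_finrank (K := KD φ 0) (V := K)
    rw [h1] at hF
    by_contra hcon
    rw [Nat.not_odd_iff_even] at hcon
    exact absurd hF (by
      rw [Nat.not_odd_iff_even]
      exact hcon.pow_of_ne_zero (Module.finrank_pos (R := KD φ 0) (M := K)).ne')
  refine false_of_node R S (by rwa [card_conj_smul]) (abTwo_conj hC g) hodd (PhiD hφ hK 0) (i := 0)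
    (mem_X hφ hK 0) (PhiD_wS hφ hK 0) ?_
  intro h1
  have hne : (-1 : KD φ 0) ≠ 0 := neg_ne_zero.2 one_ne_zero
  have h2 := ch01 hφ hK (-1) hne
  rw [hS_neg_one, h1] at h2
  have h3 : (chD hφ hK 1 (1 : ↥(twistedD4 K q)) : K) = 1 := by
    refine chD_eq hφ hK 1 (one_mem _) ?_
    rw [OneMemClass.coe_one, one_mul, inv_one, mul_one]
  rw [h3] at h2
  have h4 : (1 : K) = -1 := by
    calc (1 : K) = ((-1 : KD φ 0) : K)⁻¹ := h2
      _ = -1 := by push_cast; rw [inv_neg, inv_one]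
  exact neg_one_ne_one_of_odd hF h4.symm

end DFour

end Cfsg.Agent.H485.OddRank
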